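import Mathlib

/-!
# Groups of order nine acting faithfully on an elementary abelian group of order sixteen
-/

set_option autoImplicit false
set_option linter.style.haveILetI false

namespace Cfsg.Agent.BlkElem16

open scoped Classical

variable {Q : Type*} [Group Q] [Finite Q]

/-- The fixed points of an automorphism. -/
def fixSub (a : MulAut Q) : Subgroup Q := MonoidHom.eqLocus (a.toMonoidHom) (MonoidHom.id Q)

omit [Finite Q] in
theorem mem_fixSub {a : MulAut Q} {x : Q} : x ∈ fixSub a ↔ a x = x := Iff.rfl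

theorem card_fixSub (h16 : Nat.card Q = 16) {a : MulAut Q} (ha : a ^ 9 = 1) (hne : a ≠ 1) :
    Nat.card (fixSub a) = 1 ∨ Nat.card (fixSub a) = 4 := by
  haveI : Fact (Nat.Prime 3) := ⟨Nat.prime_three⟩
  have h3 : IsPGroup 3 (Subgroup.zpowers a) := by
    obtain ⟨i, -, hi⟩ := (Nat.dvd_prime_pow Nat.prime_three (m := 2)).1
      (orderOf_dvd_of_pow_eq_one (show a ^ 3 ^ 2 = 1 by simpa using ha))
    exact IsPGroup.of_card (n := i) (by rw [Nat.card_zpowers, hi])
  have h := h3.card_modEq_card_fixedPoints Q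
  have he : Nat.card (MulAction.fixedPoints (Subgroup.zpowers a) Q) = Nat.card (fixSub a) := by
    refine Nat.card_congr (Equiv.subtypeEquivRight fun x => ?_)
    constructor
    · intro hx
      exact hx ⟨a, Subgroup.mem_zpowers a⟩
    · rintro hx ⟨b, hb⟩
      have hs : a ∈ MulAction.stabilizer (MulAut Q) x := hx
      exact (Subgroup.zpowers_le.2 hs) hb
  rw [he, h16] at h
  have hd := (fixSub a).card_subgroup_dvd_card
  rw [h16] at hd
  have hlt : Nat.card (fixSub a) ≠ 16 := by
    intro h'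
    refine hne (MulEquiv.ext fun x => ?_)
    have ht : fixSub a = ⊤ := Subgroup.eq_top_of_card_eq _ (h'.trans h16.symm)
    exact mem_fixSub.1 (ht ▸ Subgroup.mem_top x)
  have hle := Nat.le_of_dvd (by norm_num) hd
  have h' : 16 % 3 = Nat.card (fixSub a) % 3 := h
  interval_cases Nat.card (fixSub a) <;> norm_num at *

omit [Finite Q] in
theorem fix_all {a : MulAut Q} (ha : a ^ 9 = 1) {V : Subgroup Q} (hV : Nat.card V = 4)
    (hsq : ∀ x : Q, x ^ 2 = 1) (hinv : ∀ x ∈ V, a x ∈ V) {z : Q} (hz : z ∈ V) (hz1 : z ≠ 1)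
    (haz : a z = z) {x : Q} (hx : x ∈ V) : a x = x := by
  haveI : Finite V := Nat.finite_of_card_ne_zero (by omega)
  by_contra hne
  have hx1 : x ≠ 1 := fun h => hne (by rw [h, map_one])
  have hxz : x ≠ z := fun h => hne (by rw [h, haz])
  -- the four elements
  have h1 : (⟨1, one_mem V⟩ : V) ≠ ⟨z, hz⟩ := fun h => hz1 (congrArg Subtype.val h).symm
  haveI := Fintype.ofFinite V
  have hu : (Finset.univ : Finset V) = {1, ⟨z, hz⟩, ⟨x, hx⟩, ⟨x * z, mul_mem hx hz⟩} := by
    refine (Finset.eq_univ_of_card _ ?_).symm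
    have n1 : x * z ≠ 1 := fun h => hxz (by
      have h2 := hsq z
      rw [pow_two] at h2
      exact mul_right_cancel (h.trans h2.symm))
    have n2 : x * z ≠ z := fun h => hx1 (by rwa [mul_eq_right] at h)
    have n3 : x * z ≠ x := fun h => hz1 (by rwa [mul_eq_left] at h)
    rw [← Nat.card_eq_fintype_card, hV, Finset.card_insert_of_notMem, Finset.card_insert_of_notMem,
      Finset.card_pair]
    · exact fun h => n3 (congrArg Subtype.val h).symm
    · simp only [Finset.mem_insert, Finset.mem_singleton, Subtype.mk.injEq, not_or]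
      exact ⟨fun h => hxz h.symm, fun h => n2 h.symm⟩
    · simp only [Finset.mem_insert, Finset.mem_singleton, Subtype.ext_iff, OneMemClass.coe_one,
        not_or]
      exact ⟨fun h => hz1 h.symm, fun h => hx1 h.symm, fun h => n1 h.symm⟩
  have hax := Finset.mem_univ (⟨a x, hinv x hx⟩ : V)
  rw [hu] at hax
  simp only [Finset.mem_insert, Finset.mem_singleton, Subtype.ext_iff, OneMemClass.coe_one] at hax
  have hax' : a x = x * z := by
    rcases hax with h | h | h | h
    · exact absurd ((map_eq_one_iff a a.injective).1 h) hx1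
    · exact absurd (a.injective (h.trans haz.symm)) hxz
    · exact absurd h hne
    · exact h
  have h2 : (a ^ 2) x = x := by
    have hz2 := hsq z
    rw [pow_two] at hz2 ⊢
    rw [MulAut.mul_apply, hax', map_mul, hax', haz, mul_assoc, hz2, mul_one]
  have h8 : (a ^ 8) x = x := by
    have hs : a ^ 2 ∈ MulAction.stabilizer (MulAut Q) x := h2
    have := pow_mem hs 4
    rw [← pow_mul] at this
    exact this
  apply hne
  conv_rhs => rw [show x = (a ^ 9) x by rw [ha]; rfl, pow_succ', MulAut.mul_apply, h8]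

/-- The geometry of a group of order nine on an elementary abelian group of order sixteen. -/
theorem exists_geometry (h16 : Nat.card Q = 16) (hsq : ∀ x : Q, x ^ 2 = 1)
    (E : Subgroup (MulAut Q)) (hE : Nat.card E = 9) :
    ∃ V W : Subgroup Q, Nat.card V = 4 ∧ Nat.card W = 4 ∧ V ⊓ W = ⊥ ∧
      (∀ a ∈ E, ∀ x, (x ∈ V ↔ a x ∈ V) ∧ (x ∈ W ↔ a x ∈ W)) ∧
      (∀ a ∈ E, ∀ x, (x ∈ V → x ≠ 1 → a x = x → ∀ y ∈ V, a y = y) ∧
        (x ∈ W → x ≠ 1 → a x = x → ∀ y ∈ W, a y = y)) ∧
      (∀ a ∈ E, ∀ x, ((∀ y ∈ V, a y = y) → x ∉ V → a x = x → a = 1) ∧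
        ((∀ y ∈ W, a y = y) → x ∉ W → a x = x → a = 1) ∧
        (x ∉ V → x ∉ W → a x = x → a = 1)) ∧
      (∃ a ∈ E, a ≠ 1 ∧ ∀ y ∈ V, a y = y) ∧ (∃ a ∈ E, a ≠ 1 ∧ ∀ y ∈ W, a y = y) := by
  haveI := Fintype.ofFinite Q
  haveI : Fintype E := Fintype.ofFinite E
  haveI : Fact (Nat.Prime 3) := ⟨Nat.prime_three⟩
  have h9 : ∀ a ∈ E, a ^ 9 = 1 := fun a ha => by
    have := congrArg Subtype.val (pow_card_eq_one' (x := (⟨a, ha⟩ : E)))
    rwa [hE] at this
  have hcomm : ∀ a ∈ E, ∀ b ∈ E, ∀ x, a (b x) = b (a x) := fun a ha b hb x => by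
    haveI := IsPGroup.isMulCommutative_of_card_eq_prime_sq (p := 3) (G := E) (by rw [hE]; norm_num)
    have h' := congrArg (fun c : E => (c : MulAut Q) x) (mul_comm' (⟨a, ha⟩ : E) ⟨b, hb⟩)
    exact h'
  have hfix4 : ∀ a ∈ E, a ≠ 1 → Nat.card (fixSub a) = 1 ∨ Nat.card (fixSub a) = 4 :=
    fun a ha hne => card_fixSub h16 (h9 a ha) hne
  -- a free point
  obtain ⟨x₀, hx₀⟩ : ∃ x₀ : Q, ∀ a ∈ E, a x₀ = x₀ → a = 1 := by
    by_contra! hcon
    let S : Finset E := Finset.univ.filter fun a => a ≠ 1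
    let T : Finset Q := Finset.univ.filter fun x => x ≠ 1
    have hT : T.card = 15 := by
      simp only [T, Finset.filter_ne']
      rw [Finset.card_erase_of_mem (Finset.mem_univ _), Finset.card_univ,
        ← Nat.card_eq_fintype_card, h16]
    have hS : S.card = 8 := by
      simp only [S, Finset.filter_ne']
      rw [Finset.card_erase_of_mem (Finset.mem_univ _), Finset.card_univ,
        ← Nat.card_eq_fintype_card, hE]
    have h1 : T.card * 2 ≤ ∑ x ∈ T, (S.filter fun a : E => (a : MulAut Q) x = x).card := by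
      rw [← smul_eq_mul]
      refine Finset.card_nsmul_le_sum _ _ _ fun x _ => ?_
      obtain ⟨a, ha, hax, hne⟩ := hcon x
      have hne' : (⟨a, ha⟩ : E) ≠ (⟨a, ha⟩ : E)⁻¹ := by
        intro h
        apply hne
        have h2 : a ^ 2 = 1 := by
          have h' : a = a⁻¹ := congrArg Subtype.val h
          rw [pow_two]; nth_rw 1 [h']; exact inv_mul_cancel a
        have h' := h9 a ha
        rw [show (9 : ℕ) = 2 * 4 + 1 by norm_num, pow_succ, pow_mul, h2, one_pow, one_mul] at h'
        exact h'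
      refine Finset.one_lt_card.2 ⟨(⟨a, ha⟩ : E), ?_, (⟨a, ha⟩ : E)⁻¹, ?_, hne'⟩
      · exact Finset.mem_filter.2 ⟨Finset.mem_filter.2 ⟨Finset.mem_univ _,
          fun h => hne (congrArg Subtype.val h)⟩, hax⟩
      · have hs : a ∈ MulAction.stabilizer (MulAut Q) x := hax
        exact Finset.mem_filter.2 ⟨Finset.mem_filter.2 ⟨Finset.mem_univ _,
          fun h => hne (congrArg Subtype.val (inv_eq_one.1 h))⟩, inv_mem hs⟩
    have h2 : ∑ x ∈ T, (S.filter fun a : E => (a : MulAut Q) x = x).card ≤ 8 * 3 := by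
      simp only [Finset.card_filter]
      rw [Finset.sum_comm]
      refine le_trans (Finset.sum_le_card_nsmul _ _ 3 fun a ha => ?_) (by rw [hS, smul_eq_mul])
      have hne : (a : MulAut Q) ≠ 1 := fun h => (Finset.mem_filter.1 ha).2 (Subtype.ext h)
      rw [← Finset.card_filter]
      have hc : (T.filter fun x => (a : MulAut Q) x = x).card + 1 ≤ Nat.card (fixSub (a : MulAut Q)) := by
        rw [Nat.card_eq_fintype_card, Fintype.card_subtype,
          ← Finset.card_insert_of_notMem (a := (1 : Q)) (by simp [T])]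
        refine Finset.card_le_card fun x hx => ?_
        rcases Finset.mem_insert.1 hx with rfl | hx
        · simp [mem_fixSub]
        · simp [mem_fixSub, (Finset.mem_filter.1 hx).2]
      rcases hfix4 _ a.2 hne with h | h <;> omega
    omega
  -- the nine free points
  let O : Finset Q := Finset.univ.image fun a : E => (a : MulAut Q) x₀
  have hO : O.card = 9 := by
    rw [Finset.card_image_of_injective, Finset.card_univ, ← Nat.card_eq_fintype_card, hE]
    intro a b hab
    refine Subtype.ext (inv_mul_eq_one.1 (hx₀ _ (mul_mem (inv_mem b.2) a.2) ?_)).symm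
    have hab' : (a : MulAut Q) x₀ = (b : MulAut Q) x₀ := hab
    rw [MulAut.mul_apply, hab', MulAut.inv_apply, MulEquiv.symm_apply_apply]
  let N : Finset Q := Finset.univ.filter fun x => ∃ a ∈ E, a ≠ 1 ∧ a x = x
  have hdisj : Disjoint O N := by
    rw [Finset.disjoint_left]
    intro x hx hx'
    obtain ⟨b, -, rfl⟩ := Finset.mem_image.1 hx
    obtain ⟨a, ha, hne, hax⟩ := (Finset.mem_filter.1 hx').2
    rw [hcomm a ha b b.2] at hax
    exact hne (hx₀ a ha ((b : MulAut Q).injective hax))
  have hfree : ∀ x, x ∉ N → x ∈ O := by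
    intro x hxN
    by_contra hxO
    let O' : Finset Q := Finset.univ.image fun a : E => (a : MulAut Q) x
    have hO' : O'.card = 9 := by
      rw [Finset.card_image_of_injective, Finset.card_univ, ← Nat.card_eq_fintype_card, hE]
      intro a b hab
      by_contra hne
      refine hxN (Finset.mem_filter.2 ⟨Finset.mem_univ _, (b : MulAut Q)⁻¹ * a,
        mul_mem (inv_mem b.2) a.2, fun h => hne (Subtype.ext (inv_mul_eq_one.1 h).symm), ?_⟩)
      have hab' : (a : MulAut Q) x = (b : MulAut Q) x := hab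
      rw [MulAut.mul_apply, hab', MulAut.inv_apply, MulEquiv.symm_apply_apply]
    have hd : Disjoint O O' := by
      rw [Finset.disjoint_left]
      intro y hy hy'
      obtain ⟨b, -, rfl⟩ := Finset.mem_image.1 hy
      obtain ⟨a, -, hab⟩ := Finset.mem_image.1 hy'
      refine hxO (Finset.mem_image.2 ⟨a⁻¹ * b, Finset.mem_univ _, ?_⟩)
      show ((a : MulAut Q)⁻¹ * b) x₀ = x
      rw [MulAut.mul_apply, ← hab, MulAut.inv_apply, MulEquiv.symm_apply_apply]
    have := Finset.card_le_univ (O ∪ O')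
    rw [Finset.card_union_of_disjoint hd, hO, hO', ← Nat.card_eq_fintype_card, h16] at this
    omega
  have hN : N.card = 7 := by
    have : O ∪ N = Finset.univ := Finset.eq_univ_of_forall fun x => by
      by_cases h : x ∈ N
      · exact Finset.mem_union_right _ h
      · exact Finset.mem_union_left _ (hfree x h)
    have h := Finset.card_union_of_disjoint hdisj
    rw [this, Finset.card_univ, ← Nat.card_eq_fintype_card, h16, hO] at h
    omega
  have hinv : ∀ a ∈ E, ∀ b ∈ E, ∀ x, x ∈ fixSub b ↔ a x ∈ fixSub b := fun a ha b hb x => by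
    rw [mem_fixSub, mem_fixSub, hcomm b hb a ha, a.injective.eq_iff]
  -- the two four-groups
  have hpick : ∀ x ∈ N, x ≠ 1 → ∃ a ∈ E, a ≠ 1 ∧ x ∈ fixSub a ∧ Nat.card (fixSub a) = 4 := by
    intro x hx hx1
    obtain ⟨a, ha, hne, hax⟩ := (Finset.mem_filter.1 hx).2
    refine ⟨a, ha, hne, hax, (hfix4 a ha hne).resolve_left fun h => hx1 ?_⟩
    exact Subgroup.mem_bot.1 (Subgroup.card_eq_one.1 h ▸ (hax : x ∈ fixSub a))
  obtain ⟨x, hxN, hx1⟩ := Finset.exists_mem_ne (s := N) (by omega) (1 : Q)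
  obtain ⟨a, haE, hane, -, hV⟩ := hpick x hxN hx1
  obtain ⟨y, hyN, hyV⟩ : ∃ y ∈ N, y ∉ fixSub a := by
    by_contra! h
    have h' := Finset.card_le_card (show N ⊆ Finset.univ.filter (· ∈ fixSub a) from fun y hy =>
      Finset.mem_filter.2 ⟨Finset.mem_univ _, h y hy⟩)
    have e : (Finset.univ.filter (· ∈ fixSub a)).card = 4 := by
      rw [← Fintype.card_subtype, ← Nat.card_eq_fintype_card]
      exact hV
    omega
  obtain ⟨b, hbE, hbne, hyW, hW⟩ := hpick y hyN fun h => hyV (h ▸ one_mem _)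
  have hVW : fixSub a ⊓ fixSub b = ⊥ := by
    rw [Subgroup.eq_bot_iff_forall]
    rintro z ⟨hz, hz'⟩
    by_contra hz1
    have hle : fixSub a ≤ fixSub b := fun v hv =>
      fix_all (h9 b hbE) hV hsq (fun v hv => (hinv b hbE a haE v).1 hv) hz hz1 hz' hv
    exact hyV (Subgroup.eq_of_le_of_card_ge hle (by omega) ▸ hyW)
  have hNeq : N = Finset.univ.filter fun v => v ∈ fixSub a ∨ v ∈ fixSub b := by
    refine (Finset.eq_of_subset_of_card_le (fun v hv => ?_) ?_).symm
    · rcases (Finset.mem_filter.1 hv).2 with h | h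
      · exact Finset.mem_filter.2 ⟨Finset.mem_univ _, a, haE, hane, h⟩
      · exact Finset.mem_filter.2 ⟨Finset.mem_univ _, b, hbE, hbne, h⟩
    · rw [hN, show (Finset.univ.filter fun v => v ∈ fixSub a ∨ v ∈ fixSub b) =
          Finset.univ.filter (· ∈ fixSub a) ∪ Finset.univ.filter (· ∈ fixSub b) by ext v; simp]
      have h := Finset.card_union_add_card_inter (Finset.univ.filter (· ∈ fixSub a))
        (Finset.univ.filter (· ∈ fixSub b))
      have hi : (Finset.univ.filter (· ∈ fixSub a) ∩ Finset.univ.filter (· ∈ fixSub b)) ⊆ {1} := by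
        intro v hv
        simp only [Finset.mem_inter, Finset.mem_filter, Finset.mem_univ, true_and] at hv
        have h' : v ∈ fixSub a ⊓ fixSub b := hv
        rw [hVW] at h'
        exact Finset.mem_singleton.2 (Subgroup.mem_bot.1 h')
      have hi' := Finset.card_le_card hi
      rw [Finset.card_singleton] at hi'
      rw [← Fintype.card_subtype, ← Fintype.card_subtype, ← Nat.card_eq_fintype_card,
        ← Nat.card_eq_fintype_card, hV, hW] at h
      omega
  refine ⟨fixSub a, fixSub b, hV, hW, hVW, fun c hc v => ⟨hinv c hc a haE v, hinv c hc b hbE v⟩,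
    fun c hc v => ⟨fun hv hv1 hcv u hu =>
      fix_all (h9 c hc) hV hsq (fun w hw => (hinv c hc a haE w).1 hw) hv hv1 hcv hu,
      fun hv hv1 hcv u hu =>
      fix_all (h9 c hc) hW hsq (fun w hw => (hinv c hc b hbE w).1 hw) hv hv1 hcv hu⟩,
    ?_, ⟨a, haE, hane, fun v hv => hv⟩, ⟨b, hbE, hbne, fun v hv => hv⟩⟩
  have hbig : ∀ (c : MulAut Q), c ∈ E → ∀ (U : Subgroup Q), Nat.card U = 4 →
      (∀ u ∈ U, c u = u) → ∀ v ∉ U, c v = v → c = 1 := by
    intro c hc U hU hfix v hv hcv
    by_contra hne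
    have hle : U ≤ fixSub c := hfix
    rcases hfix4 c hc hne with h | h
    · have := Subgroup.card_le_of_le hle
      omega
    · exact hv (Subgroup.eq_of_le_of_card_ge hle (by omega) ▸ (hcv : v ∈ fixSub c))
  intro c hc v
  refine ⟨fun h => hbig c hc _ hV h v, fun h => hbig c hc _ hW h v, fun hv hv' hcv => ?_⟩
  by_contra hne
  have hvN : v ∈ N := Finset.mem_filter.2 ⟨Finset.mem_univ _, c, hc, hne, hcv⟩
  rw [hNeq, Finset.mem_filter] at hvN
  exact hvN.2.elim hv hv'

end Cfsg.Agent.BlkElem16
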