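import Cfsg.Agent.BlkStar.GenStar
import Cfsg.Agent.BlkStar.StarAct
import Cfsg.Agent.BlkWat.Trace
import Cfsg.Agent.CharInd.Induced

/-!
# The inner products of a stable function acting on a block: integral symmetric matrices
-/

noncomputable section

set_option autoImplicit false
set_option maxHeartbeats 400000
set_option linter.unusedSectionVars false
set_option linter.style.haveILetI false

namespace Cfsg.Agent.BlkElem16

open Cfsg Cfsg.Agent.BrauerPairs Cfsg.Agent.BrauerPairs.Nil Cfsg.Agent.BlkStar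
open Cfsg.Agent.BlkWat Cfsg.Agent.BlkChar.Contrib
open scoped ComplexConjugate Classical

universe u

variable {p : ℕ} [Fact p.Prime] {M : Ideal AlgInt} [M.IsPrime] [CharP (Block.ResF M) p]
  {G : Type u} [Group G] [Fintype G] (D : SD p M G)

/-- The coefficient of `φ` in the star product of `χ` with an integer valued function. -/
def mm (θ : D.P → ℤ) (χ φ : IrrCharacter G) : ℂ :=
  classInner (D.gstar (fun v => (θ v : ℂ)) (χ : G → ℂ)) (φ : G → ℂ)

theorem mm_eq (θ : D.P → ℤ) (χ φ : IrrCharacter G) :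
    mm D θ χ φ = (Nat.card G : ℂ)⁻¹ * ∑ w ∈ pElts p G, ∑ a ∈ pairsAt w,
      D.gv (fun v => (θ v : ℂ)) w a * secReg p a w (χ : G → ℂ) (φ : G → ℂ) := by
  rw [mm, classInner, D.sum_gstar_mul_conj]

theorem gv_int_add (θ η : D.P → ℤ) (w : G) (a : PairIdx M G) :
    D.gv (fun v => ((θ + η) v : ℂ)) w a =
      D.gv (fun v => (θ v : ℂ)) w a + D.gv (fun v => (η v : ℂ)) w a := by
  unfold SD.gv
  split_ifs <;> simp

theorem gv_int_smul (c : ℤ) (θ : D.P → ℤ) (w : G) (a : PairIdx M G) :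
    D.gv (fun v => ((c • θ) v : ℂ)) w a = (c : ℂ) * D.gv (fun v => (θ v : ℂ)) w a := by
  unfold SD.gv
  split_ifs <;> simp

theorem gv_int_mul (θ η : D.P → ℤ) (w : G) (a : PairIdx M G) :
    D.gv (fun v => ((θ * η) v : ℂ)) w a =
      D.gv (fun v => (θ v : ℂ)) w a * conj (D.gv (fun v => (η v : ℂ)) w a) := by
  unfold SD.gv
  split_ifs <;> simp

theorem conj_gv_int (θ : D.P → ℤ) (w : G) (a : PairIdx M G) :
    conj (D.gv (fun v => (θ v : ℂ)) w a) = D.gv (fun v => (θ v : ℂ)) w a := by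
  unfold SD.gv
  split_ifs <;> simp

theorem mm_add (θ η : D.P → ℤ) (χ φ : IrrCharacter G) :
    mm D (θ + η) χ φ = mm D θ χ φ + mm D η χ φ := by
  simp only [mm_eq, ← mul_add, ← Finset.sum_add_distrib]
  simp only [gv_int_add, add_mul]

theorem mm_smul (c : ℤ) (θ : D.P → ℤ) (χ φ : IrrCharacter G) :
    mm D (c • θ) χ φ = (c : ℂ) * mm D θ χ φ := by
  simp only [mm_eq, gv_int_smul, Finset.mul_sum]
  exact Finset.sum_congr rfl fun w _ => Finset.sum_congr rfl fun a _ => by ring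

theorem mm_conj (θ : D.P → ℤ) (χ φ : IrrCharacter G) :
    conj (mm D θ χ φ) = mm D θ φ χ := by
  simp only [mm_eq, map_mul, map_sum, map_inv₀, map_natCast, conj_gv_int]
  refine congrArg _ (Finset.sum_congr rfl fun w _ => Finset.sum_congr rfl fun a _ => ?_)
  refine congrArg _ ?_
  simp only [secReg, map_sum, map_mul, Complex.conj_conj]
  exact Finset.sum_congr rfl fun y _ => mul_comm _ _

/-- The products of the matrices are the matrices of the products. -/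
theorem mm_mul {θ : D.P → ℤ} (hs : D.Stable fun v => (θ v : ℂ)) (η : D.P → ℤ)
    (χ φ : IrrCharacter G) :
    ∑ ψ ∈ Finset.univ.filter (· ∈ D.B.1), mm D θ χ ψ * conj (mm D η φ ψ) = mm D (θ * η) χ φ := by
  rw [Finset.sum_subset (Finset.subset_univ _) fun ψ _ hψ => by
    rw [mm, D.classInner_gstar_of_notMem _ χ (by simpa using hψ), zero_mul]]
  refine (Char.classInner_eq_sum_mul_conj
    (D.gstar_isClassFunction hs (Char.irr_isClassFunction χ.2))).symm.trans ?_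
  rw [mm_eq, classInner, SD.gstar, SD.gstar, sum_starWith_mul_conj D.isPModular]
  refine congrArg _ (Finset.sum_congr rfl fun w _ => Finset.sum_congr rfl fun a _ => ?_)
  rw [gv_int_mul]

theorem mm_one {χ : IrrCharacter G} (hχ : χ ∈ D.B.1) (φ : IrrCharacter G) :
    mm D 1 χ φ = if χ = φ then 1 else 0 := by
  have h : D.gstar (fun v => ((1 : D.P → ℤ) v : ℂ)) (χ : G → ℂ) = D.star 1 (χ : G → ℂ) := by
    simp only [SD.gstar, SD.star]
    congr 1
    funext w a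
    unfold SD.gv SD.lt
    split_ifs <;> simp
  rw [mm, h, D.star_one_char hχ, Char.classInner_irr χ.2 φ.2]
  simp only [Subtype.ext_iff]

/-- Stable and with integral coefficients on the block. -/
def Nice (θ : D.P → ℤ) : Prop :=
  (D.Stable fun v => (θ v : ℂ)) ∧ ∀ χ ∈ D.B.1, ∀ φ ∈ D.B.1, ∃ k : ℤ, mm D θ χ φ = k

theorem nice_of_isCharacter {θ : D.P → ℤ} (hθ : IsCharacter D.P fun v => (θ v : ℂ))
    (hs : D.Stable fun v => (θ v : ℂ)) : Nice D θ :=
  ⟨hs, fun χ _ φ _ => D.exists_int_gstar hθ hs χ φ⟩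

theorem nice_one : Nice D 1 :=
  ⟨fun _ _ _ _ _ _ => by simp, fun χ hχ φ _ => ⟨if χ = φ then 1 else 0, by
    rw [mm_one D hχ]; split_ifs <;> simp⟩⟩

theorem Nice.smul {θ : D.P → ℤ} (h : Nice D θ) (c : ℤ) : Nice D (c • θ) := by
  refine ⟨fun w a x y hx hy => ?_, fun χ hχ φ hφ => ?_⟩
  · have := h.1 w a x y hx hy
    simp only [Pi.smul_apply, smul_eq_mul, Int.cast_mul, this]
  · obtain ⟨k, hk⟩ := h.2 χ hχ φ hφ
    exact ⟨c * k, by rw [mm_smul, hk, Int.cast_mul]⟩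

theorem Nice.add {θ η : D.P → ℤ} (h : Nice D θ) (h' : Nice D η) : Nice D (θ + η) := by
  refine ⟨fun w a x y hx hy => ?_, fun χ hχ φ hφ => ?_⟩
  · have e1 := h.1 w a x y hx hy
    have e2 := h'.1 w a x y hx hy
    simp only [Pi.add_apply, Int.cast_add, e1, e2]
  · obtain ⟨k, hk⟩ := h.2 χ hχ φ hφ
    obtain ⟨k', hk'⟩ := h'.2 χ hχ φ hφ
    exact ⟨k + k', by rw [mm_add, hk, hk', Int.cast_add]⟩

theorem Nice.sub {θ η : D.P → ℤ} (h : Nice D θ) (h' : Nice D η) : Nice D (θ - η) := by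
  have e : θ - η = θ + (-1 : ℤ) • η := by rw [neg_one_smul, sub_eq_add_neg]
  rw [e]
  exact h.add D (h'.smul D (-1))

theorem Nice.mul {θ η : D.P → ℤ} (h : Nice D θ) (h' : Nice D η) : Nice D (θ * η) := by
  refine ⟨fun w a x y hx hy => ?_, fun χ hχ φ hφ => ?_⟩
  · have e1 := h.1 w a x y hx hy
    have e2 := h'.1 w a x y hx hy
    simp only [Pi.mul_apply, Int.cast_mul, e1, e2]
  · rw [← mm_mul D h.1 η χ φ]
    refine Finset.sum_induction _ (fun z : ℂ => ∃ k : ℤ, z = k)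
      (fun a b ⟨k, hk⟩ ⟨l, hl⟩ => ⟨k + l, by rw [hk, hl, Int.cast_add]⟩) ⟨0, Int.cast_zero.symm⟩
      fun ψ hψ => ?_
    obtain ⟨k, hk⟩ := h.2 χ hχ ψ (Finset.mem_filter.1 hψ).2
    obtain ⟨l, hl⟩ := h'.2 φ hφ ψ (Finset.mem_filter.1 hψ).2
    exact ⟨k * l, by rw [hk, hl, map_intCast, Int.cast_mul]⟩

/-- The integral matrix on the block. -/
def mat (θ : D.P → ℤ) (i j : D.B.1) : ℤ := ⌊(mm D θ i.1 j.1).re⌋

theorem mat_cast {θ : D.P → ℤ} (h : Nice D θ) (i j : D.B.1) :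
    (mat D θ i j : ℂ) = mm D θ i.1 j.1 := by
  obtain ⟨k, hk⟩ := h.2 i.1 i.2 j.1 j.2
  rw [mat, hk, Complex.intCast_re, Int.floor_intCast]

theorem mat_symm {θ : D.P → ℤ} (h : Nice D θ) (i j : D.B.1) : mat D θ i j = mat D θ j i := by
  apply Int.cast_injective (α := ℂ)
  rw [mat_cast D h, mat_cast D h, ← mm_conj]
  obtain ⟨k, hk⟩ := h.2 j.1 j.2 i.1 i.2
  rw [hk, map_intCast]

theorem mat_smul {θ : D.P → ℤ} (h : Nice D θ) (c : ℤ) (i j : D.B.1) :
    mat D (c • θ) i j = c * mat D θ i j := by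
  apply Int.cast_injective (α := ℂ)
  rw [mat_cast D (h.smul D c), Int.cast_mul, mat_cast D h, mm_smul]

theorem mat_mul {θ η : D.P → ℤ} (h : Nice D θ) (h' : Nice D η) (i k : D.B.1) :
    ∑ j, mat D θ i j * mat D η j k = mat D (θ * η) i k := by
  apply Int.cast_injective (α := ℂ)
  rw [mat_cast D (h.mul D h'), ← mm_mul D h.1 η, Int.cast_sum,
    Finset.sum_subtype (p := fun χ => χ ∈ D.B.1) _ (fun χ => by simp)]
  refine Finset.sum_congr rfl fun j _ => ?_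
  rw [Int.cast_mul, mat_cast D h, mat_cast D h', mm_conj]

/-- Every element of an abelian defect group sees every character of the block. -/
theorem secReg_ne_zero (hab : ∀ x ∈ D.P, ∀ y ∈ D.P, x * y = y * x) {χ : IrrCharacter G}
    (hχ : χ ∈ D.B.1) (u : D.P)
    {f : Blk M (Subgroup.centralizer (Subgroup.zpowers (u : G) : Set G))}
    (hf : SLE (pairSys M G) p ⟨Subgroup.zpowers (u : G), f⟩ ⟨D.P, D.e⟩) :
    secReg p (⟨Subgroup.zpowers (u : G), f⟩ : PairIdx M G) (u : G) (χ : G → ℂ) (χ : G → ℂ) ≠ 0 := by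
  haveI := Fintype.ofFinite (Subgroup.centralizer (Subgroup.zpowers (u : G) : Set G))
  haveI : Fact (1 < p ^ expK p G) :=
    ⟨Nat.one_lt_pow (Nat.succ_ne_zero _) (Fact.out : p.Prime).one_lt⟩
  obtain ⟨ψ, hψ, hψ0⟩ := BlockVal.exists_height_zero (p := p) (B := D.B.1) ⟨χ, hχ⟩
  have hdef := (BlockHeight.isDefIn_conj (g := 1) (u := (u : G)) (β := f) D.maxPair
    (fun x hx => hab x hx u u.2) hf (cjRel_self_of_mem_stab (one_mem _))).1
  have hd := BlockHeight.blockDefect_eq_of_isDefIn D.isPModular D.maxPair hdef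
  have hne := cM_ne_zero_major (D.isSection u) D.isPModular (D.isInducedBlock hf) hd hχ hψ hψ0
    (j := (1 : ZMod (p ^ expK p G))) isUnit_one
  intro h0
  apply hne
  rw [← secReg_eq_cM (D.isSection u) f χ ψ 1, ZMod.val_one, pow_one, secReg_eq_zero_of_self h0,
    mul_zero]

/-- A nonnegative nonzero function has a positive diagonal. -/
theorem one_le_mat (hab : ∀ x ∈ D.P, ∀ y ∈ D.P, x * y = y * x) {θ : D.P → ℤ} (h : Nice D θ)
    (h0 : ∀ v, 0 ≤ θ v) {u : D.P} (hu : 0 < θ u) (i : D.B.1) : 1 ≤ mat D θ i i := by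
  obtain ⟨f, hf⟩ := D.exists_pair u
  obtain ⟨k, hk⟩ := D.exists_orderOf u
  choose r hr using fun (b : G × PairIdx M G) =>
    (⟨_, secReg_self (p := p) b.2 b.1 ((i.1 : IrrCharacter G) : G → ℂ)⟩ :
      ∃ r : ℝ, secReg p b.2 b.1 ((i.1 : IrrCharacter G) : G → ℂ) ((i.1 : IrrCharacter G) : G → ℂ) =
        (r : ℂ))
  have hr0 : ∀ w b, 0 ≤ r (w, b) := fun w b => by
    have h1 := hr (w, b)
    rw [secReg_self, Complex.ofReal_inj] at h1
    rw [← h1]
    exact Finset.sum_nonneg fun y _ => Complex.normSq_nonneg _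
  have hg0 : ∀ w b, 0 ≤ (D.gv (fun v => (θ v : ℂ)) w b).re := fun w b => by
    unfold SD.gv
    split_ifs with hx
    · simpa using h0 _
    · exact le_rfl
  have hpos : 0 < (mat D θ i i : ℝ) := by
    have e := congrArg Complex.re ((mat_cast D h i i).trans (mm_eq D θ i.1 i.1))
    rw [Complex.intCast_re, ← Complex.ofReal_natCast, ← Complex.ofReal_inv,
      Complex.re_ofReal_mul] at e
    simp only [Complex.re_sum, fun w b => hr (w, b), Complex.re_mul_ofReal] at e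
    rw [e]
    refine mul_pos (inv_pos.2 (Nat.cast_pos.2 Nat.card_pos)) ?_
    refine Finset.sum_pos' (fun w _ => Finset.sum_nonneg fun b _ => mul_nonneg (hg0 w b) (hr0 w b))
      ⟨(u : G), mem_pElts.2 ⟨k, hk⟩, ?_⟩
    refine Finset.sum_pos' (fun b _ => mul_nonneg (hg0 _ b) (hr0 _ b))
      ⟨⟨Subgroup.zpowers (u : G), f⟩, mem_pairsAt.2 rfl, mul_pos ?_ ?_⟩
    · rw [SD.gv_eq h.1 (x := (1, u)) ⟨by simp, _, hf, rfl, cjRel_self_of_mem_stab (one_mem _)⟩]
      simpa using hu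
    · refine lt_of_le_of_ne (hr0 _ _) fun e0 => secReg_ne_zero D hab i.2 u hf ?_
      rw [hr ((u : G), _), ← e0, Complex.ofReal_zero]
  exact_mod_cast hpos

/-- The trace of a stable function acting on the block, over the defect group. -/
theorem sum_mm (hab : ∀ x ∈ D.P, ∀ y ∈ D.P, x * y = y * x) {θ : D.P → ℤ}
    (hs : D.Stable fun v => (θ v : ℂ)) :
    ∑ χ ∈ Finset.univ.filter (· ∈ D.B.1), mm D θ χ χ =
      ∑ v : D.P, (θ v : ℂ) * (rkAt p (⟨D.P, D.e⟩ : PairIdx M G) (Subgroup.zpowers (v : G)) : ℂ) /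
        ((orb (⟨D.P, D.e⟩ : PairIdx M G) v).card : ℂ) := by
  have hG0 : (Nat.card G : ℂ) ≠ 0 := Nat.cast_ne_zero.2 Nat.card_pos.ne'
  simp only [mm, classInner, D.sum_gstar_mul_conj, ← Finset.mul_sum]
  rw [inv_mul_eq_iff_eq_mul₀ hG0, Finset.sum_comm, Finset.sum_congr rfl fun w _ => Finset.sum_comm]
  simp only [← Finset.mul_sum]
  rw [Finset.sum_sigma']
  -- every element of the product is linked to exactly one subsection
  set J := (pElts p G).sigma (fun w => pairsAt (M := M) w) with hJ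
  let F : G × D.P → ℂ := fun x =>
    (θ x.2 : ℂ) * (rkAt p (⟨D.P, D.e⟩ : PairIdx M G) (Subgroup.zpowers (x.2 : G)) : ℂ) /
      ((orb (⟨D.P, D.e⟩ : PairIdx M G) x.2).card : ℂ)
  have huniq : ∀ x : G × D.P, (J.filter fun τ => D.Link τ.1 τ.2 x).card = 1 := by
    intro x
    obtain ⟨f, hf⟩ := D.exists_pair x.2
    obtain ⟨b, hb⟩ := exists_cjRel (S := pairSys M G) x.1
      (⟨Subgroup.zpowers (x.2 : G), f⟩ : PairIdx M G)
    have hl' : D.Link (x.1 * (x.2 : G) * x.1⁻¹) b x := ⟨rfl, _, hf, rfl, hb⟩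
    refine Finset.card_eq_one.2 ⟨⟨_, b⟩, Finset.eq_singleton_iff_unique_mem.2
      ⟨Finset.mem_filter.2 ⟨Finset.mem_sigma.2 ⟨mem_pElts.2 hl'.exists_orderOf,
        mem_pairsAt.2 hl'.fst_eq⟩, hl'⟩, ?_⟩⟩
    rintro ⟨w, c⟩ hc
    obtain ⟨hw, c₀, hc₀, hc₀1, hc₀c⟩ := (Finset.mem_filter.1 hc).2
    obtain rfl : x.1 * (x.2 : G) * x.1⁻¹ = w := hw
    obtain rfl : c₀ = ⟨Subgroup.zpowers (x.2 : G), f⟩ := D.eq_of_sle hc₀ hf hc₀1
    obtain rfl : c = b := hc₀c.unique hb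
    rfl
  have hswap : ∑ τ ∈ J, ∑ x ∈ fibre D τ.1 τ.2, F x = (Nat.card G : ℂ) * ∑ v : D.P, F (1, v) := by
    have h1 : ∑ τ ∈ J, ∑ x ∈ fibre D τ.1 τ.2, F x =
        ∑ x : G × D.P, ∑ τ ∈ J.filter (fun τ => D.Link τ.1 τ.2 x), F x :=
      Finset.sum_comm' (fun τ x => by simp [fibre])
    rw [h1]
    simp only [Finset.sum_const, huniq, one_smul]
    rw [Fintype.sum_prod_type]
    simp only [F, Finset.sum_const, Finset.card_univ, nsmul_eq_mul, Nat.card_eq_fintype_card]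
  rw [← hswap]
  refine Finset.sum_congr rfl fun τ hτ => ?_
  obtain ⟨w, a⟩ := τ
  obtain ⟨hw, ha⟩ := Finset.mem_sigma.1 hτ
  obtain ⟨k, hk⟩ := mem_pElts.1 hw
  by_cases hne : ∃ x, D.Link w a x
  · obtain ⟨⟨g₀, v₀⟩, h₀⟩ := hne
    show D.gv (fun v => (θ v : ℂ)) w a * _ = ∑ x ∈ fibre D w a, F x
    rw [SD.gv_eq hs h₀, sum_secReg_self D hk (mem_pairsAt.1 ha) h₀.pairOf]
    have hFx : ∀ x ∈ fibre D w a, F x = (θ v₀ : ℂ) * (blockRank p a.2.1 : ℂ) /
        ((orb (⟨D.P, D.e⟩ : PairIdx M G) v₀).card : ℂ) := by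
      intro x hx
      have hLx := (Finset.mem_filter.1 hx).2
      have h1 : (θ x.2 : ℂ) = θ v₀ := by
        rw [← SD.gv_eq hs hLx, SD.gv_eq hs h₀]
      obtain ⟨hx1, b, hb, hb1, hbc⟩ := hLx
      have h2 : rkAt p (⟨D.P, D.e⟩ : PairIdx M G) (Subgroup.zpowers (x.2 : G)) =
          blockRank p a.2.1 := by
        rw [← hb1, rkAt_eq_pair D.isPGroup hb, blockRank_eq_of_cjRel hbc]
      have h3 : orb (⟨D.P, D.e⟩ : PairIdx M G) x.2 = orb (⟨D.P, D.e⟩ : PairIdx M G) v₀ := by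
        obtain ⟨h01, b₀, hb₀, hb₀1, hb₀c⟩ := h₀
        obtain ⟨Q₀, f₀⟩ := b₀
        obtain rfl : Q₀ = Subgroup.zpowers (v₀ : G) := hb₀1
        obtain ⟨t, ht, htq⟩ := exists_stab_top_conj D.isMax hab hb₀ (hb₀c.trans hbc.symm) hb
        refine orb_eq_of_mem (mem_orb.2 ⟨t, ht, ?_⟩)
        show t * (v₀ : G) * t⁻¹ = (x.2 : G)
        have h01' : g₀ * (v₀ : G) * g₀⁻¹ = w := h01
        rw [htq _ (Subgroup.mem_zpowers _)]
        calc x.1⁻¹ * g₀ * (v₀ : G) * (x.1⁻¹ * g₀)⁻¹ = x.1⁻¹ * (g₀ * (v₀ : G) * g₀⁻¹) * x.1 := by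
              group
          _ = x.1⁻¹ * (x.1 * (x.2 : G) * x.1⁻¹) * x.1 := by rw [h01', hx1]
          _ = (x.2 : G) := by group
      show _ / _ = _
      rw [h1, h2, h3]
    rw [Finset.sum_congr rfl hFx, Finset.sum_const, card_fibre D hab h₀, nsmul_eq_mul,
      Nat.cast_mul]
    have ho : ((orb (⟨D.P, D.e⟩ : PairIdx M G) v₀).card : ℂ) ≠ 0 :=
      Nat.cast_ne_zero.2 (Finset.card_pos.2 ⟨v₀, self_mem_orb (a := (⟨D.P, D.e⟩ : PairIdx M G)) v₀⟩).ne'
    field_simp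
  · have he : fibre D w a = ∅ :=
      Finset.eq_empty_of_forall_notMem fun x hx => hne ⟨x, (Finset.mem_filter.1 hx).2⟩
    show D.gv (fun v => (θ v : ℂ)) w a * _ = ∑ x ∈ fibre D w a, F x
    rw [he, Finset.sum_empty, SD.gv_eq_zero fun x hx => hne ⟨x, hx⟩, zero_mul]

/-- The trace of an integral matrix. -/
theorem sum_mat (hab : ∀ x ∈ D.P, ∀ y ∈ D.P, x * y = y * x) {θ : D.P → ℤ} (h : Nice D θ) :
    ((∑ i, mat D θ i i : ℤ) : ℂ) =
      ∑ v : D.P, (θ v : ℂ) * (rkAt p (⟨D.P, D.e⟩ : PairIdx M G) (Subgroup.zpowers (v : G)) : ℂ) /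
        ((orb (⟨D.P, D.e⟩ : PairIdx M G) v).card : ℂ) := by
  rw [← sum_mm D hab h.1, Int.cast_sum,
    Finset.sum_subtype (p := fun χ => χ ∈ D.B.1) _ (fun χ => by simp)]
  exact Finset.sum_congr rfl fun i _ => mat_cast D h i i

end Cfsg.Agent.BlkElem16
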