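import Mathlib

/-!
Integer symmetric matrices arising in blocks with elementary abelian defect group of order 16.
-/

set_option autoImplicit false

namespace Cfsg.Agent.BlkElem16

open Finset

variable {ι : Type*} [Fintype ι]

/-- A symmetric integral matrix with `D * D = 16 • D`, trace `16`, has all `2 × 2` minors zero. -/
theorem minor_eq_zero (D : ι → ι → ℤ) (hs : ∀ i j, D i j = D j i)
    (hD : ∀ i j, ∑ k, D i k * D k j = 16 * D i j) (htr : ∑ i, D i i = 16) (i j k : ι) :
    D j k * D i i = D j i * D i k := by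
  have h2 : ∀ a, ∑ b, D a b * D a b = 16 * D a a := by
    intro a
    rw [← hD a a]
    exact Finset.sum_congr rfl fun b _ => by rw [hs a b]
  have hA : ∑ a, ∑ b, D a b * D a b = 256 := by
    rw [Finset.sum_congr rfl fun a _ => h2 a, ← Finset.mul_sum, htr]; norm_num
  have hB : ∀ a, ∑ b, D a b * D i b = 16 * D a i := by
    intro a
    rw [← hD a i]
    exact Finset.sum_congr rfl fun b _ => by rw [hs i b]
  have key : ∑ a, ∑ b, (D a b * D i i - D a i * D i b) * (D a b * D i i - D a i * D i b) = 0 := by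
    have e : ∀ a, ∑ b, (D a b * D i i - D a i * D i b) * (D a b * D i i - D a i * D i b)
        = D i i * D i i * ∑ b, D a b * D a b - 2 * D i i * D a i * ∑ b, D a b * D i b
          + D a i * D a i * ∑ b, D i b * D i b := by
      intro a
      simp only [Finset.mul_sum, ← Finset.sum_sub_distrib, ← Finset.sum_add_distrib]
      exact Finset.sum_congr rfl fun b _ => by ring
    simp only [e, hB, Finset.sum_add_distrib, Finset.sum_sub_distrib]
    rw [← Finset.mul_sum, hA, ← Finset.sum_mul]
    have e2 : ∑ a, 2 * D i i * D a i * (16 * D a i) = 32 * D i i * (16 * D i i) := by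
      rw [← h2 i, Finset.mul_sum]
      exact Finset.sum_congr rfl fun a _ => by rw [hs a i]; ring
    have e3 : ∑ a, D a i * D a i = 16 * D i i := by
      rw [← h2 i]
      exact Finset.sum_congr rfl fun a _ => by rw [hs a i]
    rw [e2, e3]; ring
  have h1 := (Finset.sum_eq_zero_iff_of_nonneg
    (fun a _ => Finset.sum_nonneg fun b _ => mul_self_nonneg _)).mp key j (Finset.mem_univ _)
  have h3 := (Finset.sum_eq_zero_iff_of_nonneg (fun b _ => mul_self_nonneg _)).mp h1 k
    (Finset.mem_univ _)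
  exact sub_eq_zero.mp (mul_self_eq_zero.mp h3)

/-- Rank one: `D i j = d i * d j` with all `|d i| ∈ {1, 2}` once there are at least 9 indices. -/
theorem exists_vector (D : ι → ι → ℤ) (hs : ∀ i j, D i j = D j i)
    (hD : ∀ i j, ∑ k, D i k * D k j = 16 * D i j) (htr : ∑ i, D i i = 16)
    (hpos : ∀ i, 1 ≤ D i i) (hk : 9 ≤ Fintype.card ι) :
    ∃ d : ι → ℤ, (∀ i j, D i j = d i * d j) ∧ (∀ i, d i * d i = 1 ∨ d i * d i = 4) ∧
      Fintype.card ι + 3 * (univ.filter fun i => d i * d i = 4).card = 16 := by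
  classical
  obtain ⟨i0, hi0⟩ : ∃ i, D i i = 1 := by
    by_contra h
    have h2 : ∀ i, 2 ≤ D i i := fun i => by
      have := hpos i
      have : D i i ≠ 1 := fun e => h ⟨i, e⟩
      omega
    have := Finset.card_nsmul_le_sum univ (fun i => D i i) 2 (fun i _ => h2 i)
    rw [htr, Finset.card_univ, nsmul_eq_mul] at this
    omega
  refine ⟨fun j => D j i0, ?_⟩
  have hd : ∀ i j, D i j = D i i0 * D j i0 := by
    intro a b
    have := minor_eq_zero D hs hD htr i0 a b
    rw [hi0, mul_one, hs i0 b] at this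
    exact this
  have hsq : ∀ i, D i i0 * D i i0 = D i i := fun i => (hd i i).symm
  have hlo : ∀ i, D i i ≤ 8 := by
    intro i
    have h := Finset.sum_erase_add univ (fun j => D j j) (Finset.mem_univ i)
    have h1 := Finset.card_nsmul_le_sum (univ.erase i) (fun j => D j j) 1 (fun j _ => hpos j)
    rw [Finset.card_erase_of_mem (Finset.mem_univ i), Finset.card_univ, nsmul_eq_mul] at h1
    rw [htr] at h
    omega
  have hv : ∀ i, D i i = 1 ∨ D i i = 4 := by
    intro i
    have h1 := hpos i
    have h2 := hlo i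
    have hb : -2 ≤ D i i0 ∧ D i i0 ≤ 2 := by
      constructor <;> nlinarith [hsq i]
    have h3 := hsq i
    obtain ⟨hb1, hb2⟩ := hb
    interval_cases h : D i i0 <;> omega
  refine ⟨hd, fun i => ?_, ?_⟩
  · rcases hv i with h | h
    · exact Or.inl ((hsq i).trans h)
    · exact Or.inr ((hsq i).trans h)
  · have e : ∑ i, D i i = ∑ i, ((1 : ℤ) + if D i i0 * D i i0 = 4 then 3 else 0) := by
      refine Finset.sum_congr rfl fun i _ => ?_
      rcases hv i with h | h
      · rw [hsq i, h]; norm_num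
      · rw [hsq i, h]; norm_num
    rw [htr, Finset.sum_add_distrib, Finset.sum_ite, Finset.sum_const, Finset.sum_const,
      Finset.sum_const_zero, Finset.card_univ, nsmul_eq_mul, nsmul_eq_mul] at e
    simp only
    omega

theorem card_mem (D : ι → ι → ℤ) (hs : ∀ i j, D i j = D j i)
    (hD : ∀ i j, ∑ k, D i k * D k j = 16 * D i j) (htr : ∑ i, D i i = 16)
    (hpos : ∀ i, 1 ≤ D i i) (hk : 9 ≤ Fintype.card ι) :
    Fintype.card ι = 16 ∨ Fintype.card ι = 13 ∨ Fintype.card ι = 10 := by
  classical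
  obtain ⟨d, -, -, h⟩ := exists_vector D hs hD htr hpos hk
  omega

/-- If `H * H = 4 • H` and `H d = 4 • d`, then every row of `H` has even sum over the even `d`. -/
theorem even_row (H : ι → ι → ℤ) (d : ι → ℤ) (hs : ∀ i j, H i j = H j i)
    (hH : ∀ i j, ∑ k, H i k * H k j = 4 * H i j) (hd : ∀ i, ∑ k, H i k * d k = 4 * d i) (i : ι) :
    Even (∑ k, H i k * (1 - d k)) := by
  have h2 : ∑ k, H i k * H i k = 4 * H i i := by
    rw [← hH i i]
    exact Finset.sum_congr rfl fun b _ => by rw [hs i b]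
  have e : ∑ k, H i k * (1 - d k) =
      ∑ k, (H i k - H i k * H i k) + ∑ k, H i k * H i k - ∑ k, H i k * d k := by
    rw [← Finset.sum_add_distrib, ← Finset.sum_sub_distrib]
    exact Finset.sum_congr rfl fun k _ => by ring
  rw [e, h2, hd i]
  refine Even.sub (Even.add ?_ ⟨2 * H i i, by ring⟩) ⟨2 * d i, by ring⟩
  refine Finset.even_sum _ fun k _ => ?_
  have h := Int.even_mul_succ_self (H i k - 1)
  rw [show H i k - H i k * H i k = -((H i k - 1) * (H i k - 1 + 1)) by ring]
  exact h.neg

/-- The off diagonal part of a row at an index `e` with `d e = ± 2`, `H e e = 2`. -/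
theorem row_two (H : ι → ι → ℤ) (d : ι → ℤ) (hs : ∀ i j, H i j = H j i)
    (hH : ∀ i j, ∑ k, H i k * H k j = 4 * H i j) (hd : ∀ i, ∑ k, H i k * d k = 4 * d i)
    [DecidableEq ι] (e : ι) (s : ℤ) (hde : d e = 2 * s) (he : H e e = 2) :
    ∑ k ∈ univ.erase e, H e k * H e k = 4 ∧ ∑ k ∈ univ.erase e, H e k * d k = 4 * s := by
  have h2 : ∑ k, H e k * H e k = 4 * H e e := by
    rw [← hH e e]
    exact Finset.sum_congr rfl fun b _ => by rw [hs e b]
  have h3 := hd e
  rw [← Finset.sum_erase_add _ _ (Finset.mem_univ e), he] at h2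
  rw [← Finset.sum_erase_add _ _ (Finset.mem_univ e), he, hde] at h3
  exact ⟨by linarith, by linarith⟩

theorem sub_nonneg_of_sign (x a s : ℤ) (ha : a * a = 1) (hs : s * s = 1) :
    0 ≤ x * x - x * a * s := by
  have h : a * s = 1 ∨ a * s = -1 :=
    mul_self_eq_one_iff.mp (by rw [mul_mul_mul_comm, ha, hs, one_mul])
  rw [mul_assoc]
  rcases h with h | h <;> rw [h]
  · have := Int.le_self_sq x
    nlinarith
  · have := Int.le_self_sq (-x)
    nlinarith

theorem eq_zero_or_sign (x a s : ℤ) (h : x * x - x * a * s = 0) : x = 0 ∨ x = a * s := by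
  rw [mul_assoc, ← mul_sub, mul_eq_zero, sub_eq_zero] at h
  exact h

theorem two_cases {x : ℤ} (h : x * x = 4) : ∃ s : ℤ, x = 2 * s ∧ s * s = 1 := by
  rcases mul_self_eq_mul_self_iff.mp (show x * x = 2 * 2 by omega) with h | h
  · exact ⟨1, by omega, by norm_num⟩
  · exact ⟨-1, by omega, by norm_num⟩

/-- With exactly one even entry of `d` there is no `H`. -/
theorem no_single (H : ι → ι → ℤ) (d : ι → ℤ) (hs : ∀ i j, H i j = H j i)
    (hH : ∀ i j, ∑ k, H i k * H k j = 4 * H i j) (hd : ∀ i, ∑ k, H i k * d k = 4 * d i)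
    (e : ι) (hde : d e * d e = 4) (hoth : ∀ k, k ≠ e → d k * d k = 1) (he : H e e = 2) :
    False := by
  classical
  obtain ⟨s, hs1, hs2⟩ := two_cases hde
  obtain ⟨hq, hl⟩ := row_two H d hs hH hd e s hs1 he
  have hev : ∀ j, Even (H j e) := by
    intro j
    have h := even_row H d hs hH hd j
    rw [← Finset.sum_erase_add _ _ (Finset.mem_univ e)] at h
    have h1 : Even (∑ k ∈ univ.erase e, H j k * (1 - d k)) := by
      refine Finset.even_sum _ fun k hk => Even.mul_left ?_ _
      rcases mul_self_eq_one_iff.mp (hoth k (Finset.ne_of_mem_erase hk)) with h | h <;>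
        rw [h] <;> decide
    have h2 : Even (H j e * (1 - d e)) := by
      rwa [Int.even_add, iff_true_left h1] at h
    rw [Int.even_mul] at h2
    rcases h2 with h2 | h2
    · exact h2
    · rw [hs1] at h2
      obtain ⟨c, hc⟩ := h2
      omega
  have hz : ∀ k ∈ univ.erase e, H e k = 0 := by
    have hx : ∑ k ∈ univ.erase e, (H e k * H e k - H e k * d k * s) = 0 := by
      rw [Finset.sum_sub_distrib, ← Finset.sum_mul, hq, hl]
      rw [mul_assoc, hs2]; norm_num
    intro k hk
    have h0 := (Finset.sum_eq_zero_iff_of_nonneg (fun k hk =>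
      sub_nonneg_of_sign _ _ _ (hoth k (Finset.ne_of_mem_erase hk)) hs2)).mp hx k hk
    rcases eq_zero_or_sign _ _ _ h0 with h | h
    · exact h
    · obtain ⟨c, hc⟩ := hev k
      rw [hs k e, h] at hc
      rcases mul_self_eq_one_iff.mp (show (d k * s) * (d k * s) = 1 by
        rw [mul_mul_mul_comm, hoth k (Finset.ne_of_mem_erase hk), hs2, one_mul]) with h' | h' <;>
        omega
  rw [Finset.sum_eq_zero fun k hk => by rw [hz k hk, zero_mul]] at hq
  omega

/-- With exactly two even entries `e, f` of `d`: `H e f = d e * d f / 2`, rest of the row zero. -/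
theorem row_pair (H : ι → ι → ℤ) (d : ι → ℤ) (hs : ∀ i j, H i j = H j i)
    (hH : ∀ i j, ∑ k, H i k * H k j = 4 * H i j) (hd : ∀ i, ∑ k, H i k * d k = 4 * d i)
    (e f : ι) (hef : e ≠ f) (hde : d e * d e = 4) (hdf : d f * d f = 4)
    (hoth : ∀ k, k ≠ e → k ≠ f → d k * d k = 1) (he : H e e = 2) (hf : H f f = 2) :
    2 * H e f = d e * d f ∧ ∀ k, k ≠ e → k ≠ f → H e k = 0 := by
  classical
  obtain ⟨s, hs1, hs2⟩ := two_cases hde
  obtain ⟨t, ht1, ht2⟩ := two_cases hdf
  obtain ⟨hq, hl⟩ := row_two H d hs hH hd e s hs1 he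
  obtain ⟨hqf, hlf⟩ := row_two H d hs hH hd f t ht1 hf
  set R : Finset ι := (univ.erase e).erase f with hR
  have hfe : f ∈ univ.erase e := Finset.mem_erase.mpr ⟨fun h => hef h.symm, Finset.mem_univ f⟩
  have heR : ∀ g : ι → ℤ, ∑ k ∈ univ.erase e, g k = ∑ k ∈ R, g k + g f := fun g =>
    (Finset.sum_erase_add _ _ hfe).symm
  have hfR : ∀ g : ι → ℤ, ∑ k ∈ univ.erase f, g k = ∑ k ∈ R, g k + g e := by
    intro g
    rw [hR, Finset.erase_right_comm]
    exact (Finset.sum_erase_add _ _ (Finset.mem_erase.mpr ⟨hef, Finset.mem_univ e⟩)).symm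
  have hmem : ∀ k ∈ R, d k * d k = 1 := fun k hk =>
    hoth k (Finset.ne_of_mem_erase (Finset.mem_of_mem_erase hk)) (Finset.ne_of_mem_erase hk)
  have hpar : ∀ j, Even (H j e + H j f) := by
    intro j
    have h := even_row H d hs hH hd j
    rw [← Finset.sum_erase_add _ _ (Finset.mem_univ e), heR] at h
    have h1 : Even (∑ k ∈ R, H j k * (1 - d k)) := by
      refine Finset.even_sum _ fun k hk => Even.mul_left ?_ _
      rcases mul_self_eq_one_iff.mp (hmem k hk) with h | h <;> rw [h] <;> decide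
    rw [add_assoc, Int.even_add, iff_true_left h1, hs1, ht1] at h
    obtain ⟨c, hc⟩ := h
    refine ⟨c + H j f * t + H j e * s, ?_⟩
    linarith
  rw [heR] at hq hl
  rw [hfR] at hqf hlf
  have hyy : H e f * H e f ≤ 4 := by
    have := Finset.sum_nonneg (s := R) (fun k _ => mul_self_nonneg (H e k))
    linarith
  have hyev : Even (H e f) := by
    have := hpar e
    rw [he, Int.even_add] at this
    exact this.mp (by decide)
  have hy : H e f = 2 * (s * t) := by
    by_contra hne
    -- otherwise the entry vanishes, and the two rows are the same zero-one row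
    have hy0 : H e f = 0 := by
      obtain ⟨c, hc⟩ := hyev
      have hc1 : -1 ≤ c ∧ c ≤ 1 := by constructor <;> nlinarith
      rcases (show c = 0 ∨ c = -1 ∨ c = 1 by omega) with h | h | h
      · omega
      all_goals
        exfalso
        have hsq : ∑ k ∈ R, H e k * H e k = 0 := by rw [hc, h] at hq; linarith
        have hz : ∑ k ∈ R, H e k * d k = 0 := Finset.sum_eq_zero fun k hk => by
          rw [mul_self_eq_zero.mp ((Finset.sum_eq_zero_iff_of_nonneg
            (fun k _ => mul_self_nonneg _)).mp hsq k hk), zero_mul]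
        rw [hz, ht1, zero_add] at hl
        refine hne ?_
        rcases mul_self_eq_one_iff.mp ht2 with rfl | rfl <;>
          rcases mul_self_eq_one_iff.mp hs2 with rfl | rfl <;> omega
    have key : ∀ (x : ι → ℤ) (a : ℤ), a * a = 1 → ∑ k ∈ R, x k * x k = 4 →
        ∑ k ∈ R, x k * d k = 4 * a → ∀ k ∈ R, x k = 0 ∨ x k = d k * a := by
      intro x a ha h1 h2 k hk
      have hx : ∑ k ∈ R, (x k * x k - x k * d k * a) = 0 := by
        rw [Finset.sum_sub_distrib, ← Finset.sum_mul, h1, h2, mul_assoc, ha]; norm_num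
      exact eq_zero_or_sign _ _ _ ((Finset.sum_eq_zero_iff_of_nonneg (fun k hk =>
        sub_nonneg_of_sign _ _ _ (hmem k hk) ha)).mp hx k hk)
    have hfe0 : H f e = 0 := by rw [hs f e]; exact hy0
    have ke := key (H e) s hs2 (by rw [hy0] at hq; linarith) (by rw [hy0] at hl; linarith)
    have kf := key (H f) t ht2 (by rw [hfe0] at hqf; linarith) (by rw [hfe0] at hlf; linarith)
    have horth : ∑ k ∈ R, H e k * H f k = 0 := by
      have h := hH e f
      rw [← Finset.sum_erase_add _ _ (Finset.mem_univ e), heR, hy0, he, hf] at h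
      rw [Finset.sum_congr rfl fun k _ => by rw [← hs k f]]
      linarith
    have hsame : ∀ k ∈ R, H e k * H f k * (s * t) = H e k * H e k := by
      intro k hk
      have h3 := hpar k
      rw [hs k e, hs k f] at h3
      rcases ke k hk with h | h <;> rcases kf k hk with h' | h' <;> rw [h, h'] at h3 ⊢
      · ring
      · ring
      · exfalso
        rw [add_zero, Int.even_mul] at h3
        rcases h3 with ⟨c, hc⟩ | ⟨c, hc⟩
        · rcases mul_self_eq_one_iff.mp (hmem k hk) with h | h <;> omega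
        · rcases mul_self_eq_one_iff.mp hs2 with h | h <;> omega
      · linear_combination (d k * d k * s * s) * ht2
    have h4 : ∑ k ∈ R, H e k * H e k = 0 := by
      rw [← Finset.sum_congr rfl hsame, ← Finset.sum_mul, horth, zero_mul]
    rw [hy0] at hq
    linarith
  refine ⟨by rw [hy, hs1, ht1]; ring, fun k hke hkf => ?_⟩
  have hsq : ∑ k ∈ R, H e k * H e k = 0 := by
    have : H e f * H e f = 4 := by
      rw [hy]; linear_combination 4 * (t * t) * hs2 + 4 * ht2
    linarith
  exact mul_self_eq_zero.mp ((Finset.sum_eq_zero_iff_of_nonneg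
    (fun k _ => mul_self_nonneg _)).mp hsq k
    (Finset.mem_erase.mpr ⟨hkf, Finset.mem_erase.mpr ⟨hke, Finset.mem_univ k⟩⟩))

/-- The three matrices `A`, `B`, `D = A * B` force sixteen indices. -/
theorem card_eq_sixteen (A B D : ι → ι → ℤ)
    (hAs : ∀ i j, A i j = A j i) (hBs : ∀ i j, B i j = B j i) (hDs : ∀ i j, D i j = D j i)
    (hA : ∀ i j, ∑ k, A i k * A k j = 4 * A i j) (hB : ∀ i j, ∑ k, B i k * B k j = 4 * B i j)
    (hD : ∀ i j, ∑ k, D i k * D k j = 16 * D i j) (hAD : ∀ i j, ∑ k, A i k * D k j = 4 * D i j)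
    (hBD : ∀ i j, ∑ k, B i k * D k j = 4 * D i j) (hAB : ∀ i j, ∑ k, A i k * B k j = D i j)
    (htr : ∑ i, D i i = 16) (hpos : ∀ i, 1 ≤ D i i)
    (hAlo : ∀ i, 1 ≤ 4 * A i i - D i i) (hBlo : ∀ i, 1 ≤ 4 * B i i - D i i)
    (hup : ∀ i, 1 ≤ 16 - 4 * A i i - 4 * B i i + D i i) (hk : 9 ≤ Fintype.card ι) :
    Fintype.card ι = 16 := by
  classical
  obtain ⟨d, hd, hv, hc⟩ := exists_vector D hDs hD htr hpos hk
  set E := univ.filter fun i => d i * d i = 4 with hE
  have hne : ∀ i, d i ≠ 0 := fun i h => by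
    have h2 := hpos i
    rw [hd, h] at h2
    omega
  have cancel : ∀ (H : ι → ι → ℤ), (∀ i j, ∑ k, H i k * D k j = 4 * D i j) →
      ∀ i, ∑ k, H i k * d k = 4 * d i := by
    intro H h i
    have h2 := h i i
    simp only [hd, ← mul_assoc, ← Finset.sum_mul] at h2
    exact mul_right_cancel₀ (hne i) h2
  have hdA := cancel A hAD
  have hdB := cancel B hBD
  have hmemE : ∀ i ∈ E, A i i = 2 ∧ B i i = 2 := by
    intro i hi
    have h4 : D i i = 4 := by rw [hd]; exact (Finset.mem_filter.mp hi).2
    have h1 := hAlo i; have h2 := hBlo i; have h3 := hup i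
    omega
  have hout : ∀ i, i ∉ E → d i * d i = 1 := fun i hi =>
    (hv i).resolve_right fun h => hi (Finset.mem_filter.mpr ⟨Finset.mem_univ i, h⟩)
  rcases Nat.lt_or_ge E.card 1 with h0 | h0
  · omega
  rcases Nat.lt_or_ge E.card 2 with h1 | h1
  · obtain ⟨e, he⟩ := Finset.card_eq_one.mp (show E.card = 1 by omega)
    have hem : e ∈ E := he ▸ Finset.mem_singleton_self e
    exact (no_single A d hAs hA hdA e (Finset.mem_filter.mp hem).2
      (fun k hk => hout k (by rw [he]; exact fun h => hk (Finset.mem_singleton.mp h)))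
      (hmemE e hem).1).elim
  · obtain ⟨e, f, hef, he⟩ := Finset.card_eq_two.mp (show E.card = 2 by omega)
    have hem : e ∈ E := by rw [he]; exact Finset.mem_insert_self e _
    have hfm : f ∈ E := by rw [he]; exact Finset.mem_insert_of_mem (Finset.mem_singleton_self f)
    have ho : ∀ k, k ≠ e → k ≠ f → d k * d k = 1 := fun k h1 h2 => hout k (by
      rw [he, Finset.mem_insert, Finset.mem_singleton]; push Not; exact ⟨h1, h2⟩)
    have hde := (Finset.mem_filter.mp hem).2
    have hdf := (Finset.mem_filter.mp hfm).2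
    obtain ⟨hyA, hzA⟩ := row_pair A d hAs hA hdA e f hef hde hdf ho (hmemE e hem).1 (hmemE f hfm).1
    obtain ⟨hyB, -⟩ := row_pair B d hBs hB hdB e f hef hde hdf ho (hmemE e hem).2 (hmemE f hfm).2
    have h := hAB e e
    rw [← Finset.sum_erase_add _ _ (Finset.mem_univ e),
      Finset.sum_eq_single_of_mem f (Finset.mem_erase.mpr ⟨hef.symm, Finset.mem_univ f⟩)
        (fun k hk hkf => by rw [hzA k (Finset.ne_of_mem_erase hk) hkf, zero_mul]),
      (hmemE e hem).1, (hmemE e hem).2, hd, hde, hBs f e] at h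
    have h2 : A e f * B e f = 4 := by
      have h3 : (d e * d f) * (d e * d f) = 16 := by
        rw [mul_mul_mul_comm, hde, hdf]; norm_num
      rw [← hyA] at h3
      rw [← hyA] at hyB
      have : B e f = A e f := by omega
      rw [this]; linarith
    omega

end Cfsg.Agent.BlkElem16
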