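import Cfsg.Agent.BlkElem16.Contrib
import Cfsg.Agent.BlkElem16.Matrix

/-!
# Blocks with a defect group of order 16 and two complementary invariant four-groups
-/

noncomputable section

set_option autoImplicit false
set_option maxHeartbeats 400000
set_option linter.unusedSectionVars false
set_option linter.style.haveILetI false

namespace Cfsg.Agent.BlkElem16

open Cfsg Cfsg.Agent.BrauerPairs Cfsg.Agent.BlkStar Cfsg.Agent.BlkWat
open scoped ComplexConjugate Classical

universe u

variable {p : ℕ} [Fact p.Prime] {M : Ideal AlgInt} [M.IsPrime] [CharP (Block.ResF M) p]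
  {G : Type u} [Group G] [Fintype G] (D : SD p M G)

/-- A function constant on the orbits of the stabiliser is stable. -/
theorem stable_of_stab (hab : ∀ x ∈ D.P, ∀ y ∈ D.P, x * y = y * x) {θ : D.P → ℂ}
    (h : ∀ t ∈ stab (⟨D.P, D.e⟩ : PairIdx M G), ∀ x y : D.P,
      t * (x : G) * t⁻¹ = (y : G) → θ x = θ y) : D.Stable θ := by
  intro w a x y hx hy
  obtain ⟨hx1, ⟨Q, f⟩, hb₀, hb₀1, hb₀c⟩ := hx
  obtain ⟨hy1, b, hb, -, hbc⟩ := hy
  obtain rfl : Q = Subgroup.zpowers (x.2 : G) := hb₀1
  obtain ⟨t, ht, htq⟩ := exists_stab_top_conj D.isMax hab hb₀ (hb₀c.trans hbc.symm) hb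
  refine h t ht _ _ ?_
  rw [htq _ (Subgroup.mem_zpowers _)]
  calc y.1⁻¹ * x.1 * (x.2 : G) * (y.1⁻¹ * x.1)⁻¹
      = y.1⁻¹ * (x.1 * (x.2 : G) * x.1⁻¹) * y.1 := by group
    _ = y.1⁻¹ * (y.1 * (y.2 : G) * y.1⁻¹) * y.1 := by rw [hx1, hy1]
    _ = _ := by group

/-- The indicator of a subgroup of the defect group. -/
def ind (W : Subgroup D.P) (v : D.P) : ℤ := if v ∈ W then 1 else 0

theorem ind_eq (W : Subgroup D.P) (v : D.P) : ind D W v = if v ∈ W then 1 else 0 := rfl

/-- The stabiliser of the maximal pair leaves the subgroup invariant. -/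
def Inv (W : Subgroup D.P) : Prop :=
  ∀ t ∈ stab (⟨D.P, D.e⟩ : PairIdx M G), ∀ x y : D.P, t * (x : G) * t⁻¹ = (y : G) →
    (x ∈ W ↔ y ∈ W)

theorem nice_four_ind (hab : ∀ x ∈ D.P, ∀ y ∈ D.P, x * y = y * x) (hcard : Nat.card D.P = 16)
    {W : Subgroup D.P} (hW : Nat.card W = 4) (hinv : Inv D W) :
    Nice D ((4 : ℤ) • ind D W) := by
  refine nice_of_isCharacter D ?_ (stable_of_stab D hab fun t ht x y h => ?_)
  · have h := CharInd.isCharacter_indFun W (Char.isCharacter_const_one (G := W))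
    convert h using 1
    funext v
    have hc : ∀ x : D.P, x⁻¹ * v * x = v := fun x =>
      Subtype.ext (by
        show (x : G)⁻¹ * (v : G) * (x : G) = (v : G)
        rw [mul_assoc, hab v v.2 x x.2, inv_mul_cancel_left])
    rw [CharInd.indFun_apply, Finset.sum_congr rfl fun x _ => by rw [hc x], Finset.sum_const,
      Finset.card_univ, ← Nat.card_eq_fintype_card, hcard, hW]
    simp only [Pi.smul_apply, smul_eq_mul, ind_eq]
    unfold Cfsg.extendByZero
    split_ifs with hv
    · rw [show v = ((⟨v, hv⟩ : W) : D.P) from rfl, Subtype.val_injective.extend_apply]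
      norm_num
    · rw [Function.extend_apply' _ _ _ fun ⟨x, hx⟩ => hv (hx ▸ x.2)]
      simp
  · simp only [Pi.smul_apply, smul_eq_mul, ind_eq, hinv t ht x y h]

theorem sum_ind (W : Subgroup D.P) : ∑ v : D.P, (ind D W v : ℂ) = (Nat.card W : ℂ) := by
  simp only [ind_eq, Int.cast_ite, Int.cast_one, Int.cast_zero, Finset.sum_boole]
  rw [Nat.card_eq_fintype_card, Fintype.card_subtype]

theorem mat_add {θ η : D.P → ℤ} (h : Nice D θ) (h' : Nice D η) (i j : D.B.1) :
    mat D (θ + η) i j = mat D θ i j + mat D η i j := by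
  apply Int.cast_injective (α := ℂ)
  rw [mat_cast D (h.add D h'), Int.cast_add, mat_cast D h, mat_cast D h', mm_add]

theorem mat_sub {θ η : D.P → ℤ} (h : Nice D θ) (h' : Nice D η) (i j : D.B.1) :
    mat D (θ - η) i j = mat D θ i j - mat D η i j := by
  have e := mat_add D (h.sub D h') h' i j
  rw [sub_add_cancel] at e
  omega

theorem mat_one (i j : D.B.1) : mat D 1 i j = if i = j then 1 else 0 := by
  apply Int.cast_injective (α := ℂ)
  rw [mat_cast D (nice_one D), mm_one D i.2]
  simp only [Subtype.ext_iff]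
  split_ifs <;> simp

/-- A function with square `16` times itself and trace sixteen. -/
theorem card_mem_of_sq (hab : ∀ x ∈ D.P, ∀ y ∈ D.P, x * y = y * x) {d : D.P → ℤ} (hd : Nice D d)
    (hsq : d * d = (16 : ℤ) • d) (h0 : ∀ v, 0 ≤ d v) {u : D.P} (hu : 0 < d u)
    (htr : ∑ i, mat D d i i = 16) (hk : 9 ≤ Nat.card D.B.1) :
    Nat.card D.B.1 = 16 ∨ Nat.card D.B.1 = 13 ∨ Nat.card D.B.1 = 10 := by
  rw [Nat.card_eq_fintype_card] at hk ⊢
  exact card_mem (mat D d) (mat_symm D hd)
    (fun i j => by rw [mat_mul D hd hd, hsq, mat_smul D hd]) htr (one_le_mat D hab hd h0 hu) hk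

variable (V W : Subgroup D.P)

/-- The rank of the block at an element of the defect group. -/
abbrev rkE (v : D.P) : ℕ := rkAt p (⟨D.P, D.e⟩ : PairIdx M G) (Subgroup.zpowers (v : G))

/-- The length of the orbit of an element of the defect group. -/
abbrev ocE (v : D.P) : ℕ := (orb (⟨D.P, D.e⟩ : PairIdx M G) v).card

/-- The local configuration: the stabiliser fixes `V` and is regular of order three on the rest. -/
theorem rank_eq_three (hab : ∀ x ∈ D.P, ∀ y ∈ D.P, x * y = y * x) (hcard : Nat.card D.P = 16)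
    (hV : Nat.card V = 4) (hW : Nat.card W = 4) (hVW : V ⊓ W = ⊥) (hVi : Inv D V) (hWi : Inv D W)
    (r : ℕ) (hr : 2 ≤ r) (hrV : ∀ v : D.P, v ∈ V → rkE D v = r ∧ ocE D v = 1)
    (hout : ∀ v : D.P, v ∉ V → rkE D v = 1 ∧ ocE D v = 3) : r = 3 := by
  simp only [rkE, ocE] at hrV hout
  have hone : ∀ v : D.P, v ∈ W → (v ∈ V ↔ v = 1) := fun v hv => ⟨fun h => by
    have h' : v ∈ V ⊓ W := ⟨h, hv⟩
    rw [hVW] at h'
    exact Subgroup.mem_bot.1 h', fun h => h ▸ one_mem V⟩
  obtain ⟨w, hw, hw1⟩ : ∃ w ∈ W, w ≠ 1 := W.bot_or_exists_ne_one.resolve_left fun h => by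
    rw [h, Subgroup.card_bot] at hW; omega
  -- the number of characters
  have hk : Nat.card D.B.1 = 4 * r + 4 := by
    have h := card_eq_sum_rk D hab
    rw [Finset.sum_congr rfl (g := fun v : D.P =>
      (1 / 3 : ℂ) + ((r : ℂ) - 1 / 3) * (ind D V v : ℂ)) fun v _ => ?_] at h
    · rw [Finset.sum_add_distrib, ← Finset.mul_sum, sum_ind, hV, Finset.sum_const,
        Finset.card_univ, ← Nat.card_eq_fintype_card, hcard] at h
      have : (Nat.card D.B.1 : ℂ) = ((4 * r + 4 : ℕ) : ℂ) := by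
        rw [h]; push_cast; ring
      exact_mod_cast this
    · simp only [ind_eq]
      by_cases hv : v ∈ V
      · rw [(hrV v hv).1, (hrV v hv).2, if_pos hv]; push_cast; ring
      · rw [(hout v hv).1, (hout v hv).2, if_neg hv]; push_cast; ring
  -- the rank one matrix
  set d : D.P → ℤ := ((4 : ℤ) • ind D W) * ((4 : ℤ) • 1 - (4 : ℤ) • ind D V) with hd
  have hn : Nice D d := (nice_four_ind D hab hcard hW hWi).mul D
    (((nice_one D).smul D 4).sub D (nice_four_ind D hab hcard hV hVi))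
  have hval : ∀ v, d v = if v ∈ W ∧ v ∉ V then 16 else 0 := by
    intro v
    simp only [hd, Pi.mul_apply, Pi.sub_apply, Pi.smul_apply, Pi.one_apply, smul_eq_mul, ind_eq]
    by_cases h1 : v ∈ W <;> by_cases h2 : v ∈ V <;> simp [h1, h2]
  have htr : ∑ i, mat D d i i = 16 := by
    apply Int.cast_injective (α := ℂ)
    rw [sum_mat D hab hn, Finset.sum_congr rfl (g := fun v : D.P =>
      (16 / 3 : ℂ) * ((ind D W v : ℂ) - (if v = 1 then 1 else 0))) fun v _ => ?_]
    · rw [← Finset.mul_sum, Finset.sum_sub_distrib, sum_ind, hW, Finset.sum_ite_eq' Finset.univ,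
        if_pos (Finset.mem_univ _)]
      norm_num
    · rw [hval, ind_eq]
      by_cases h1 : v ∈ W
      · by_cases h2 : v ∈ V
        · rw [if_neg fun h => h.2 h2, if_pos h1, if_pos ((hone v h1).1 h2)]; simp
        · rw [if_pos ⟨h1, h2⟩, if_pos h1, if_neg fun h => h2 ((hone v h1).2 h), (hout v h2).1,
            (hout v h2).2]
          push_cast; ring
      · have hv1 : v ≠ 1 := fun h => h1 (h ▸ one_mem W)
        rw [if_neg fun h => h1 h.1, if_neg h1, if_neg hv1]; simp
  have h := card_mem_of_sq D hab hn ?_ ?_ (u := w) ?_ htr (by omega)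
  · omega
  · funext v
    simp only [Pi.mul_apply, Pi.smul_apply, smul_eq_mul, hval]
    split_ifs <;> norm_num
  · intro v
    rw [hval]
    split_ifs <;> norm_num
  · rw [hval, if_pos ⟨hw, fun h => hw1 ((hone w hw).1 h)⟩]
    norm_num

/-- The global configuration. -/
theorem counts (hab : ∀ x ∈ D.P, ∀ y ∈ D.P, x * y = y * x) (hcard : Nat.card D.P = 16)
    (hV : Nat.card V = 4) (hW : Nat.card W = 4) (hVW : V ⊓ W = ⊥) (hVi : Inv D V) (hWi : Inv D W)
    (l : ℕ) (hl : 2 ≤ l) (hl1 : rkE D 1 = l)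
    (hin : ∀ v : D.P, v ≠ 1 → v ∈ V ∨ v ∈ W → rkE D v = 3 ∧ ocE D v = 3)
    (hout : ∀ v : D.P, v ∉ V → v ∉ W → rkE D v = 1 ∧ ocE D v = 9) :
    Nat.card D.B.1 = 16 ∧ l = 9 := by
  have hone : ∀ v : D.P, v ∈ V → v ∈ W → v = 1 := fun v h h' => by
    have h'' : v ∈ V ⊓ W := ⟨h, h'⟩
    rw [hVW] at h''
    exact Subgroup.mem_bot.1 h''
  have horb1 : ocE D 1 = 1 := by
    refine Finset.card_eq_one.2 ⟨1, Finset.eq_singleton_iff_unique_mem.2
      ⟨self_mem_orb (a := (⟨D.P, D.e⟩ : PairIdx M G)) 1, fun w hw => ?_⟩⟩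
    obtain ⟨t, -, htw⟩ := mem_orb.1 hw
    refine Subtype.ext ?_
    rw [← htw]
    simp
  simp only [rkE, ocE] at hl1 hin hout horb1
  have hk : Nat.card D.B.1 = l + 7 := by
    have h := card_eq_sum_rk D hab
    rw [Finset.sum_congr rfl (g := fun v : D.P =>
      (1 / 9 : ℂ) + (8 / 9 : ℂ) * (ind D V v : ℂ) + (8 / 9 : ℂ) * (ind D W v : ℂ) +
        (if v = 1 then ((l : ℂ) - 17 / 9) else 0)) fun v _ => ?_] at h
    · rw [Finset.sum_add_distrib, Finset.sum_add_distrib, Finset.sum_add_distrib, ← Finset.mul_sum,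
        ← Finset.mul_sum, sum_ind, sum_ind, hV, hW, Finset.sum_const, Finset.card_univ,
        ← Nat.card_eq_fintype_card, hcard, Finset.sum_ite_eq' Finset.univ,
        if_pos (Finset.mem_univ _)] at h
      have : (Nat.card D.B.1 : ℂ) = ((l + 7 : ℕ) : ℂ) := by
        rw [h]; push_cast; ring
      exact_mod_cast this
    · by_cases hv1 : v = 1
      · subst hv1
        rw [ind_eq, ind_eq, if_pos (one_mem V), if_pos (one_mem W), if_pos rfl, horb1, hl1]
        push_cast; ring
      · rw [if_neg hv1, ind_eq, ind_eq]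
        by_cases h1 : v ∈ V
        · rw [if_pos h1, if_neg fun h2 => hv1 (hone v h1 h2), (hin v hv1 (Or.inl h1)).1,
            (hin v hv1 (Or.inl h1)).2]
          push_cast; ring
        · by_cases h2 : v ∈ W
          · rw [if_neg h1, if_pos h2, (hin v hv1 (Or.inr h2)).1, (hin v hv1 (Or.inr h2)).2]
            push_cast; ring
          · rw [if_neg h1, if_neg h2, (hout v h1 h2).1, (hout v h1 h2).2]
            push_cast; ring
  obtain ⟨x, hx, hx1⟩ : ∃ x ∈ V, x ≠ 1 := V.bot_or_exists_ne_one.resolve_left fun h => by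
    rw [h, Subgroup.card_bot] at hV; omega
  obtain ⟨y, hy, hy1⟩ : ∃ y ∈ W, y ≠ 1 := W.bot_or_exists_ne_one.resolve_left fun h => by
    rw [h, Subgroup.card_bot] at hW; omega
  set a : D.P → ℤ := (4 : ℤ) • 1 - (4 : ℤ) • ind D W with ha
  set b : D.P → ℤ := (4 : ℤ) • 1 - (4 : ℤ) • ind D V with hb
  have hna : Nice D a := ((nice_one D).smul D 4).sub D (nice_four_ind D hab hcard hW hWi)
  have hnb : Nice D b := ((nice_one D).smul D 4).sub D (nice_four_ind D hab hcard hV hVi)
  have hnd : Nice D (a * b) := hna.mul D hnb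
  have hva : ∀ v, a v = if v ∈ W then 0 else 4 := fun v => by
    simp only [ha, Pi.sub_apply, Pi.smul_apply, Pi.one_apply, smul_eq_mul, ind_eq]
    split_ifs <;> norm_num
  have hvb : ∀ v, b v = if v ∈ V then 0 else 4 := fun v => by
    simp only [hb, Pi.sub_apply, Pi.smul_apply, Pi.one_apply, smul_eq_mul, ind_eq]
    split_ifs <;> norm_num
  have haa : a * a = (4 : ℤ) • a := funext fun v => by
    simp only [Pi.mul_apply, Pi.smul_apply, smul_eq_mul, hva]; split_ifs <;> norm_num
  have hbb : b * b = (4 : ℤ) • b := funext fun v => by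
    simp only [Pi.mul_apply, Pi.smul_apply, smul_eq_mul, hvb]; split_ifs <;> norm_num
  have hdd : a * b * (a * b) = (16 : ℤ) • (a * b) := by
    rw [mul_mul_mul_comm, haa, hbb, smul_mul_assoc, mul_smul_comm, smul_smul]; norm_num
  have had : a * (a * b) = (4 : ℤ) • (a * b) := by rw [← mul_assoc, haa, smul_mul_assoc]
  have hbd : b * (a * b) = (4 : ℤ) • (a * b) := by
    rw [mul_left_comm, hbb, mul_smul_comm]
  obtain ⟨u, huV, huW⟩ : ∃ u : D.P, u ∉ V ∧ u ∉ W := by
    refine ⟨x * y, fun h => hy1 (hone y ((Subgroup.mul_mem_cancel_left V hx).1 h) hy), fun h =>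
      hx1 (hone x hx ((Subgroup.mul_mem_cancel_right W hy).1 h))⟩
  have htr : ∑ i, mat D (a * b) i i = 16 := by
    apply Int.cast_injective (α := ℂ)
    rw [sum_mat D hab hnd, Finset.sum_congr rfl (g := fun v : D.P => (16 / 9 : ℂ) *
      (1 - (ind D V v : ℂ) - (ind D W v : ℂ) + (if v = 1 then 1 else 0))) fun v _ => ?_]
    · rw [← Finset.mul_sum, Finset.sum_add_distrib, Finset.sum_sub_distrib, Finset.sum_sub_distrib,
        sum_ind, sum_ind, hV, hW, Finset.sum_ite_eq' Finset.univ, if_pos (Finset.mem_univ _),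
        Finset.sum_const, Finset.card_univ, ← Nat.card_eq_fintype_card, hcard]
      norm_num
    · simp only [Pi.mul_apply, hva, hvb, ind_eq]
      by_cases h1 : v ∈ V <;> by_cases h2 : v ∈ W
      · rw [if_pos h1, if_pos h1, if_pos h2, if_pos h2, if_pos (hone v h1 h2)]; simp
      · rw [if_pos h1, if_pos h1, if_neg h2, if_neg h2, if_neg fun h => h2 (by rw [h]; exact one_mem W)]
        simp
      · rw [if_neg h1, if_neg h1, if_pos h2, if_pos h2, if_neg fun h => h1 (by rw [h]; exact one_mem V)]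
        simp
      · rw [if_neg h1, if_neg h1, if_neg h2, if_neg h2, if_neg fun h => h1 (by rw [h]; exact one_mem V),
          (hout v h1 h2).1, (hout v h1 h2).2]
        push_cast; ring
  have hmain : Fintype.card D.B.1 = 16 := by
    refine card_eq_sixteen (mat D a) (mat D b) (mat D (a * b)) (mat_symm D hna) (mat_symm D hnb)
      (mat_symm D hnd) (fun i j => by rw [mat_mul D hna hna, haa, mat_smul D hna])
      (fun i j => by rw [mat_mul D hnb hnb, hbb, mat_smul D hnb])
      (fun i j => by rw [mat_mul D hnd hnd, hdd, mat_smul D hnd])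
      (fun i j => by rw [mat_mul D hna hnd, had, mat_smul D hnd])
      (fun i j => by rw [mat_mul D hnb hnd, hbd, mat_smul D hnd])
      (fun i j => mat_mul D hna hnb i j) htr
      (one_le_mat D hab hnd (fun v => ?_) (u := u) ?_) ?_ ?_ ?_
      (by rw [← Nat.card_eq_fintype_card]; omega)
    · simp only [Pi.mul_apply, hva, hvb]; split_ifs <;> norm_num
    · simp [Pi.mul_apply, hva, hvb, huV, huW]
    · intro i
      have h := one_le_mat D hab ((hna.smul D 4).sub D hnd) (fun v => ?_) (u := x) ?_ i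
      · rwa [mat_sub D (hna.smul D 4) hnd, mat_smul D hna] at h
      · simp only [Pi.sub_apply, Pi.smul_apply, Pi.mul_apply, smul_eq_mul, hva, hvb]
        split_ifs <;> norm_num
      · have hxW : x ∉ W := fun h => hx1 (hone x hx h)
        simp [hva, hvb, hx, hxW]
    · intro i
      have h := one_le_mat D hab ((hnb.smul D 4).sub D hnd) (fun v => ?_) (u := y) ?_ i
      · rwa [mat_sub D (hnb.smul D 4) hnd, mat_smul D hnb] at h
      · simp only [Pi.sub_apply, Pi.smul_apply, Pi.mul_apply, smul_eq_mul, hva, hvb]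
        split_ifs <;> norm_num
      · have hyV : y ∉ V := fun h => hy1 (hone y h hy)
        simp [hva, hvb, hy, hyV]
    · intro i
      have hn1 := (((nice_one D).smul D 16).sub D (hna.smul D 4)).sub D (hnb.smul D 4)
      have h := one_le_mat D hab (hn1.add D hnd) (fun v => ?_) (u := 1) ?_ i
      · rwa [mat_add D hn1 hnd, mat_sub D (((nice_one D).smul D 16).sub D (hna.smul D 4))
          (hnb.smul D 4), mat_sub D ((nice_one D).smul D 16) (hna.smul D 4), mat_smul D (nice_one D),
          mat_smul D hna, mat_smul D hnb, mat_one, if_pos rfl, mul_one] at h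
      · simp only [Pi.add_apply, Pi.sub_apply, Pi.smul_apply, Pi.mul_apply, Pi.one_apply,
          smul_eq_mul, hva, hvb]
        split_ifs <;> norm_num
      · simp [hva, hvb, one_mem]
  rw [← Nat.card_eq_fintype_card] at hmain
  exact ⟨hmain, by omega⟩

end Cfsg.Agent.BlkElem16
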