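import Cfsg.Agent.BlkElem16.Core
import Cfsg.Agent.BlkElem16.Act
import Cfsg.Agent.BlkWat.Main
import Cfsg.Agent.S4689
import Cfsg.Agent.Brauer.KleinFourBlock

/-!
# Blocks with elementary abelian defect group of order 16 and inertial index 9
-/

noncomputable section

set_option autoImplicit false
set_option maxHeartbeats 400000
set_option linter.unusedSectionVars false
set_option linter.style.haveILetI false

namespace Cfsg.Agent.BlkElem16

open Cfsg Cfsg.Agent.BrauerPairs Cfsg.Agent.BlkStar Cfsg.Agent.BlkWat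
open scoped ComplexConjugate Classical

universe u

variable {p : ℕ} [Fact p.Prime] {M : Ideal AlgInt} [M.IsPrime] [CharP (Block.ResF M) p]
  {G : Type u} [Group G] [Fintype G] (D : SD p M G)

/-- The automorphisms of the defect group induced by the stabiliser. -/
def actHom : stab (⟨D.P, D.e⟩ : PairIdx M G) →* MulAut D.P :=
  (Subgroup.normalizerMonoidHom D.P).comp
    (Subgroup.inclusion (stab_le_normalizer (⟨D.P, D.e⟩ : PairIdx M G)))

theorem actHom_coe (t : stab (⟨D.P, D.e⟩ : PairIdx M G)) (x : D.P) :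
    ((actHom D t x : D.P) : G) = (t : G) * x * (t : G)⁻¹ := rfl

theorem actHom_eq_one_iff (t : stab (⟨D.P, D.e⟩ : PairIdx M G)) :
    actHom D t = 1 ↔ (t : G) ∈ Subgroup.centralizer (D.P : Set G) := by
  rw [Subgroup.mem_centralizer_iff]
  constructor
  · intro h x hx
    have h1 : (t : G) * x * (t : G)⁻¹ = x := by
      rw [← actHom_coe D t ⟨x, hx⟩, h]; rfl
    exact (mul_inv_eq_iff_eq_mul.1 h1).symm
  · intro h
    refine MulEquiv.ext fun x => Subtype.ext ?_
    rw [actHom_coe, ← h x x.2, mul_inv_cancel_right]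
    rfl

theorem card_range_actHom :
    Nat.card (actHom D).range =
      (Subgroup.centralizer (D.P : Set G)).relIndex (stab (⟨D.P, D.e⟩ : PairIdx M G)) := by
  rw [← Subgroup.index_ker]
  congr 1
  ext t
  rw [MonoidHom.mem_ker, Subgroup.mem_subgroupOf, actHom_eq_one_iff]

theorem fix_of_mem_centralizer {t : stab (⟨D.P, D.e⟩ : PairIdx M G)} {Q : Subgroup G} {u : D.P}
    (hu : (u : G) ∈ Q) (ht : (t : G) ∈ Subgroup.centralizer (Q : Set G)) :
    actHom D t u = u := by
  refine Subtype.ext ?_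
  rw [actHom_coe, ← Subgroup.mem_centralizer_iff.1 ht _ hu, mul_inv_cancel_right]

theorem mem_orb_iff {v w : D.P} :
    w ∈ orb (⟨D.P, D.e⟩ : PairIdx M G) v ↔ ∃ a ∈ (actHom D).range, a v = w := by
  rw [mem_orb]
  constructor
  · rintro ⟨t, ht, h⟩
    exact ⟨_, ⟨⟨t, ht⟩, rfl⟩, Subtype.ext h⟩
  · rintro ⟨_, ⟨t, rfl⟩, rfl⟩
    exact ⟨t, t.2, (actHom_coe D t v).symm⟩

/-- The block at a subgroup whose centraliser in the stabiliser acts trivially has rank one. -/
theorem rkAt_eq_one_of_free (hab : ∀ x ∈ D.P, ∀ y ∈ D.P, x * y = y * x) {Q : Subgroup G}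
    (hQ : Q ≤ D.P)
    (h : stab (⟨D.P, D.e⟩ : PairIdx M G) ⊓ Subgroup.centralizer (Q : Set G) ≤
      Subgroup.centralizer (D.P : Set G)) :
    rkAt p (⟨D.P, D.e⟩ : PairIdx M G) Q = 1 := by
  obtain ⟨f, hn, -⟩ := existsUnique_nsub (pairSys M G) (b := (⟨D.P, D.e⟩ : PairIdx M G))
    D.isPGroup hQ ((le_centralizer_of_abelian hab hQ).trans (Subgroup.centralizer_le_normalizer _))
  haveI := Fintype.ofFinite (Subgroup.centralizer (Q : Set G))
  rw [rkAt_eq D.isPGroup (Relation.ReflTransGen.single hn)]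
  exact (Cfsg.Agent.S4689.result p M D.isPModular f.1
    ((isNilpotentBlock_local_iff D.isMax hab hn).2 h)).1

/-- Rank three at the elements of the two four-groups. -/
theorem rkAt_eq_three (hab : ∀ x ∈ D.P, ∀ y ∈ D.P, x * y = y * x) (hcard : Nat.card D.P = 16)
    (V W : Subgroup D.P) (hV : Nat.card V = 4) (hW : Nat.card W = 4) (hVW : V ⊓ W = ⊥)
    (hinvV : ∀ a ∈ (actHom D).range, ∀ x, x ∈ V ↔ a x ∈ V)
    (hinvW : ∀ a ∈ (actHom D).range, ∀ x, x ∈ W ↔ a x ∈ W)
    (hfixV : ∀ a ∈ (actHom D).range, ∀ x ∈ V, x ≠ 1 → a x = x → ∀ y ∈ V, a y = y)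
    (hfree : ∀ a ∈ (actHom D).range, ∀ x, (∀ y ∈ V, a y = y) → x ∉ V → a x = x → a = 1)
    (hex : ∃ a ∈ (actHom D).range, a ≠ 1 ∧ ∀ y ∈ V, a y = y)
    (hodd : ∀ a ∈ (actHom D).range, a ^ 9 = 1)
    (hr1 : ∀ u : D.P, rkAt p (⟨D.P, D.e⟩ : PairIdx M G) (Subgroup.zpowers (u : G)) = 1 →
      ∀ a ∈ (actHom D).range, a u = u → a = 1)
    (u : D.P) (hu : u ∈ V) (hu1 : u ≠ 1) :
    rkE D u = 3 := by
  set a : PairIdx M G := ⟨D.P, D.e⟩ with ha
  set S := Subgroup.zpowers (u : G) with hS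
  have hSP : S ≤ D.P := Subgroup.zpowers_le.2 u.2
  obtain ⟨f, hn, -⟩ := existsUnique_nsub (pairSys M G) (b := a)
    D.isPGroup hSP ((le_centralizer_of_abelian hab hSP).trans (Subgroup.centralizer_le_normalizer _))
  obtain ⟨R', r, hl, hm', hab'⟩ := exists_local_maxPair D.isMax hab hn
  haveI := Fintype.ofFinite (Subgroup.centralizer (S : Set G))
  obtain ⟨F, hF⟩ := exists_blockFS hm'
  let D' : BlkStar.SD p M (Subgroup.centralizer (S : Set G)) :=
    { B := f, P := R', e := r, F := F, isPModular := D.isPModular, isFS := hF }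
  let φ : R' ≃* D.P := (R'.equivMapOfInjective _
    (Subgroup.centralizer (S : Set G)).subtype_injective).trans (MulEquiv.subgroupCongr hl.1)
  have hφ : ∀ v : R', ((φ v : D.P) : G) = ((v : Subgroup.centralizer (S : Set G)) : G) :=
    fun v => rfl
  -- the automorphisms fixing `V`
  obtain ⟨c, hc, hc1, hcV⟩ := hex
  obtain ⟨y, hy, hy1⟩ : ∃ y ∈ W, y ≠ 1 := W.bot_or_exists_ne_one.resolve_left fun h => by
    rw [h, Subgroup.card_bot] at hW; omega
  have hyV : y ∉ V := fun h => hy1 (Subgroup.mem_bot.1 (hVW ▸ (⟨h, hy⟩ : y ∈ V ⊓ W)))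
  let K : Finset (MulAut D.P) :=
    Finset.univ.filter fun b => b ∈ (actHom D).range ∧ ∀ v ∈ V, b v = v
  have hKinj : ∀ v ∉ V, Set.InjOn (fun b : MulAut D.P => b v) K := by
    intro v hv b hb b' hb' h
    obtain ⟨hb, hbV⟩ := (Finset.mem_filter.1 hb).2
    obtain ⟨hb', hbV'⟩ := (Finset.mem_filter.1 hb').2
    refine (inv_mul_eq_one.1 (hfree (b'⁻¹ * b) (mul_mem (inv_mem hb') hb) v (fun w hw => ?_) hv ?_)).symm
    · rw [MulAut.mul_apply, hbV w hw]
      nth_rw 1 [← hbV' w hw]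
      rw [MulAut.inv_apply, MulEquiv.symm_apply_apply]
    · have h' : b v = b' v := h
      rw [MulAut.mul_apply, h', MulAut.inv_apply, MulEquiv.symm_apply_apply]
  have hK : K.card = 3 := by
    refine le_antisymm ?_ ?_
    · rw [← Finset.card_image_of_injOn (hKinj y hyV)]
      refine le_trans (Finset.card_le_card (t := (Finset.univ.filter (· ∈ W)).erase 1)
        fun w hw => ?_) (le_of_eq ?_)
      · obtain ⟨b, hb, rfl⟩ := Finset.mem_image.1 hw
        have hbE := (Finset.mem_filter.1 hb).2.1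
        exact Finset.mem_erase.2 ⟨fun h => hy1 ((map_eq_one_iff b b.injective).1 h),
          Finset.mem_filter.2 ⟨Finset.mem_univ _, (hinvW b hbE y).1 hy⟩⟩
      · rw [Finset.card_erase_of_mem (Finset.mem_filter.2 ⟨Finset.mem_univ _, one_mem W⟩),
          ← Fintype.card_subtype, ← Nat.card_eq_fintype_card, hW]
    · have h3 : ({1, c, c * c} : Finset (MulAut D.P)).card = 3 := by
        have h2 : c * c ≠ 1 := fun h => hc1 (by
          have h9 := hodd c hc
          rw [show (9 : ℕ) = 2 * 4 + 1 by norm_num, pow_succ, pow_mul, pow_two, h, one_pow,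
            one_mul] at h9
          exact h9)
        refine Finset.card_eq_three.2 ⟨1, c, c * c, hc1.symm, h2.symm, fun h => hc1 ?_, rfl⟩
        exact mul_eq_left.1 h.symm
      rw [← h3]
      refine Finset.card_le_card fun b hb => Finset.mem_filter.2 ⟨Finset.mem_univ _, ?_⟩
      rcases Finset.mem_insert.1 hb with rfl | hb
      · exact ⟨one_mem _, fun v _ => rfl⟩
      rcases Finset.mem_insert.1 hb with rfl | hb
      · exact ⟨hc, hcV⟩
      rw [Finset.mem_singleton.1 hb]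
      exact ⟨mul_mem hc hc, fun v hv => by rw [MulAut.mul_apply, hcV v hv, hcV v hv]⟩
  -- the local stabiliser
  have hstab : ∀ (t : Subgroup.centralizer (S : Set G)) (x x' : R'),
      t ∈ stab (⟨R', r⟩ : PairIdx M (Subgroup.centralizer (S : Set G))) →
      t * (x : Subgroup.centralizer (S : Set G)) * t⁻¹ = x' →
      ∃ b ∈ (actHom D).range, (∀ v ∈ V, b v = v) ∧ b (φ x) = φ x' := by
    intro t x x' ht h
    have ht' : (t : G) ∈ stab a := (mem_stab_lifts hl t).1 ht
    refine ⟨actHom D ⟨t, ht'⟩, ⟨_, rfl⟩, hfixV _ ⟨_, rfl⟩ u hu hu1 ?_, Subtype.ext ?_⟩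
    · exact fix_of_mem_centralizer D (Subgroup.mem_zpowers _) t.2
    · rw [actHom_coe, hφ, hφ, ← h]
      rfl
  let V' : Subgroup D'.P := V.map φ.symm.toMonoidHom
  let W' : Subgroup D'.P := W.map φ.symm.toMonoidHom
  have hmem : ∀ (U : Subgroup D.P) (v : D'.P), v ∈ U.map φ.symm.toMonoidHom ↔ φ v ∈ U := by
    intro U v
    constructor
    · rintro ⟨w, hw, rfl⟩
      simpa using hw
    · intro h
      exact ⟨φ v, h, by simp⟩
  have hrk : ∀ v : D'.P, rkE D' v = rkAt p a (S ⊔ Subgroup.zpowers ((φ v : D.P) : G)) := by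
    intro v
    show rkAt p (⟨R', r⟩ : PairIdx M (Subgroup.centralizer (S : Set G))) _ = _
    rw [rkAt_lifts D.isPGroup hab hSP hl (Subgroup.zpowers_le.2 v.2), MonoidHom.map_zpowers, hφ]
    rfl
  have hbot : rkAt p (⟨R', r⟩ : PairIdx M (Subgroup.centralizer (S : Set G))) ⊥ = rkAt p a S := by
    rw [rkAt_lifts D.isPGroup hab hSP hl bot_le, Subgroup.map_bot, sup_bot_eq]
  have hr2 : 2 ≤ rkAt p a S := by
    have h1 : rkAt p a S ≠ 1 := fun h => hc1 (hr1 u h c hc (hcV u hu))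
    have h0 : 0 < rkAt p a S := by
      rw [rkAt_eq D.isPGroup (Relation.ReflTransGen.single hn)]
      exact Brauer.KleinBlock.blockRank_pos f.2
    omega
  show rkAt p a S = 3
  refine rank_eq_three D' V' W' hab' ?_ ?_ ?_ ?_ ?_ ?_ _ hr2 (fun v hv => ⟨?_, ?_⟩)
    fun v hv => ⟨?_, ?_⟩
  · rw [Nat.card_congr φ.toEquiv, hcard]
  · rw [Subgroup.card_map_of_injective φ.symm.injective, hV]
  · rw [Subgroup.card_map_of_injective φ.symm.injective, hW]
  · rw [← Subgroup.map_inf _ _ φ.symm.toMonoidHom φ.symm.injective, hVW, Subgroup.map_bot]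
  · intro t ht x x' h
    obtain ⟨b, hb, -, hbx⟩ := hstab t x x' ht h
    rw [hmem, hmem, ← hbx]
    exact hinvV b hb _
  · intro t ht x x' h
    obtain ⟨b, hb, -, hbx⟩ := hstab t x x' ht h
    rw [hmem, hmem, ← hbx]
    exact hinvW b hb _
  · rw [← hbot]
    refine rkAt_fixed D.isPModular hm' hab' v.2 fun t ht => ?_
    obtain ⟨w, hw, hwt⟩ : ∃ w : R', t * (v : Subgroup.centralizer (S : Set G)) * t⁻¹ = w ∧
        True := ⟨⟨_, (Subgroup.mem_normalizer_iff.1 ht.1 _).1 v.2⟩, rfl, trivial⟩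
    obtain ⟨b, -, hbV, hbx⟩ := hstab t v w ht hw
    rw [hbV _ ((hmem V v).1 hv)] at hbx
    rw [hw, φ.injective hbx]
  · refine Finset.card_eq_one.2 ⟨v, Finset.eq_singleton_iff_unique_mem.2
      ⟨self_mem_orb (a := (⟨R', r⟩ : PairIdx M (Subgroup.centralizer (S : Set G)))) v,
        fun w hw => ?_⟩⟩
    obtain ⟨t, ht, htw⟩ := mem_orb.1 hw
    obtain ⟨b, -, hbV, hbx⟩ := hstab t v w ht htw
    rw [hbV _ ((hmem V v).1 hv)] at hbx
    exact (φ.injective hbx).symm
  · have hv' : φ v ∉ V := fun h => hv ((hmem V v).2 h)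
    rw [hrk]
    refine rkAt_eq_one_of_free D hab (sup_le hSP (Subgroup.zpowers_le.2 (φ v).2)) ?_
    rintro t ⟨ht, htQ⟩
    refine (actHom_eq_one_iff D ⟨t, ht⟩).1 (hfree _ ⟨_, rfl⟩ (φ v)
      (hfixV _ ⟨_, rfl⟩ u hu hu1 ?_) hv' ?_)
    · exact fix_of_mem_centralizer D (Subgroup.mem_sup_left (Subgroup.mem_zpowers _)) htQ
    · exact fix_of_mem_centralizer D (Subgroup.mem_sup_right (Subgroup.mem_zpowers _)) htQ
  · have hv' : φ v ∉ V := fun h => hv ((hmem V v).2 h)
    show (orb (⟨R', r⟩ : PairIdx M (Subgroup.centralizer (S : Set G))) v).card = 3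
    rw [← hK, ← Finset.card_image_of_injOn (hKinj _ hv')]
    refine Finset.card_equiv φ.toEquiv fun w => ?_
    rw [mem_orb, Finset.mem_image]
    constructor
    · rintro ⟨t, ht, htw⟩
      obtain ⟨b, hb, hbV, hbx⟩ := hstab t v w ht htw
      exact ⟨b, Finset.mem_filter.2 ⟨Finset.mem_univ _, hb, hbV⟩, hbx⟩
    · rintro ⟨b, hb, hbx⟩
      obtain ⟨hbE, hbV⟩ := (Finset.mem_filter.1 hb).2
      obtain ⟨t, rfl⟩ := hbE
      have htS : (t : G) ∈ Subgroup.centralizer (S : Set G) := by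
        rw [hS, Brauer.centralizer_zpowers_eq, Subgroup.mem_centralizer_singleton_iff]
        exact mul_inv_eq_iff_eq_mul.1 ((actHom_coe D t u).symm.trans
          (congrArg Subtype.val (hbV u hu)))
      exact ⟨⟨t, htS⟩, (mem_stab_lifts hl ⟨t, htS⟩).2 t.2,
        Subtype.ext ((actHom_coe D t (φ v)).symm.trans (congrArg Subtype.val hbx))⟩

/-- The counts for inertial index nine, when rank one forces a trivial local inertial group. -/
theorem counts_of_index_nine (hab : ∀ x ∈ D.P, ∀ y ∈ D.P, x * y = y * x)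
    (hcard : Nat.card D.P = 16) (hel : ∀ x : D.P, x ^ 2 = 1)
    (he : (Subgroup.centralizer (D.P : Set G)).relIndex (stab (⟨D.P, D.e⟩ : PairIdx M G)) = 9)
    (hr1 : ∀ u : D.P, rkAt p (⟨D.P, D.e⟩ : PairIdx M G) (Subgroup.zpowers (u : G)) = 1 →
      stab (⟨D.P, D.e⟩ : PairIdx M G) ⊓
          Subgroup.centralizer (Subgroup.zpowers (u : G) : Set G) ≤
        Subgroup.centralizer (D.P : Set G)) :
    Nat.card D.B.1 = 16 ∧ blockRank p D.B.1 = 9 := by
  set a : PairIdx M G := ⟨D.P, D.e⟩ with ha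
  have hE : Nat.card (actHom D).range = 9 := (card_range_actHom D).trans he
  have hodd : ∀ b ∈ (actHom D).range, b ^ 9 = 1 := fun b hb => by
    have h := congrArg Subtype.val (pow_card_eq_one' (x := (⟨b, hb⟩ : (actHom D).range)))
    rwa [hE] at h
  have hr1' : ∀ u : D.P, rkAt p a (Subgroup.zpowers (u : G)) = 1 →
      ∀ b ∈ (actHom D).range, b u = u → b = 1 := by
    rintro u h _ ⟨t, rfl⟩ htu
    refine (actHom_eq_one_iff D t).2 (hr1 u h ⟨t.2, ?_⟩)
    rw [Brauer.centralizer_zpowers_eq]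
    exact Subgroup.mem_centralizer_singleton_iff.2
      (mul_inv_eq_iff_eq_mul.1 ((actHom_coe D t u).symm.trans (congrArg Subtype.val htu)))
  obtain ⟨V, W, hV, hW, hVW, hinv, hfix, hfree, hexV, hexW⟩ :=
    exists_geometry hcard hel (actHom D).range hE
  have hrkV : ∀ u : D.P, u ∈ V → u ≠ 1 → rkE D u = 3 :=
    rkAt_eq_three D hab hcard V W hV hW hVW (fun b hb x => (hinv b hb x).1)
      (fun b hb x => (hinv b hb x).2) (fun b hb x => (hfix b hb x).1)
      (fun b hb x => (hfree b hb x).1) hexV hodd hr1'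
  have hrkW : ∀ u : D.P, u ∈ W → u ≠ 1 → rkE D u = 3 :=
    rkAt_eq_three D hab hcard W V hW hV (by rw [inf_comm, hVW]) (fun b hb x => (hinv b hb x).2)
      (fun b hb x => (hinv b hb x).1) (fun b hb x => (hfix b hb x).2)
      (fun b hb x => (hfree b hb x).2.1) hexW hodd hr1'
  have horb3 : ∀ (U U' : Subgroup D.P), Nat.card U = 4 → U ⊓ U' = ⊥ →
      (∀ b ∈ (actHom D).range, ∀ x, x ∈ U ↔ b x ∈ U) →
      (∀ b ∈ (actHom D).range, ∀ x, (∀ y ∈ U', b y = y) → x ∉ U' → b x = x → b = 1) →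
      (∃ b ∈ (actHom D).range, b ≠ 1 ∧ ∀ y ∈ U', b y = y) →
      ∀ v : D.P, v ∈ U → v ≠ 1 → ocE D v = 3 := by
    intro U U' hU hUU' hUinv hU'free hU'ex v hv hv1
    obtain ⟨b, hb, hb1, hbU⟩ := hU'ex
    have hvU' : v ∉ U' := fun h => hv1 (Subgroup.mem_bot.1 (hUU' ▸ (⟨hv, h⟩ : v ∈ U ⊓ U')))
    have hbv : b v ≠ v := fun h => hb1 (hU'free b hb v hbU hvU' h)
    have hb2 : b * b ≠ 1 := fun h => hb1 (by
      have h9 := hodd b hb
      rw [show (9 : ℕ) = 2 * 4 + 1 by norm_num, pow_succ, pow_mul, pow_two, h, one_pow,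
        one_mul] at h9
      exact h9)
    have hbbv : b (b v) ≠ v := fun h => hb2 (hU'free (b * b) (mul_mem hb hb) v
      (fun y hy => by rw [MulAut.mul_apply, hbU y hy, hbU y hy]) hvU' h)
    refine le_antisymm ?_ ?_
    · refine le_trans (Finset.card_le_card (t := (Finset.univ.filter (· ∈ U)).erase 1)
        fun w hw => ?_) (le_of_eq ?_)
      · obtain ⟨c, hc, rfl⟩ := (mem_orb_iff D).1 hw
        exact Finset.mem_erase.2 ⟨fun h => hv1 ((map_eq_one_iff c c.injective).1 h),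
          Finset.mem_filter.2 ⟨Finset.mem_univ _, (hUinv c hc v).1 hv⟩⟩
      · rw [Finset.card_erase_of_mem (Finset.mem_filter.2 ⟨Finset.mem_univ _, one_mem U⟩),
          ← Fintype.card_subtype, ← Nat.card_eq_fintype_card, hU]
    · have h3 : ({v, b v, b (b v)} : Finset D.P).card = 3 := Finset.card_eq_three.2
        ⟨v, b v, b (b v), hbv.symm, hbbv.symm, fun h => hbv (b.injective h).symm, rfl⟩
      rw [← h3]
      refine Finset.card_le_card fun w hw => (mem_orb_iff D).2 ?_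
      rcases Finset.mem_insert.1 hw with rfl | hw
      · exact ⟨1, one_mem _, rfl⟩
      rcases Finset.mem_insert.1 hw with rfl | hw
      · exact ⟨b, hb, rfl⟩
      rw [Finset.mem_singleton.1 hw]
      exact ⟨b * b, mul_mem hb hb, rfl⟩
  obtain ⟨f₀, hf₀, -⟩ := existsUnique_sle (S := pairSys M G) (b := a) (Q := ⊥) D.isPGroup bot_le
  have hl : rkE D 1 = blockRank p D.B.1 := by
    show rkAt p a (Subgroup.zpowers ((1 : D.P) : G)) = _
    rw [OneMemClass.coe_one, Subgroup.zpowers_one_eq_bot, rkAt_eq D.isPGroup hf₀]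
    exact blockRank_eq_of_pairOf_bot (hf₀.pairOf_iff.1 D.maxPair.1)
  have hl2 : 2 ≤ rkE D 1 := by
    obtain ⟨b, hb, hb1, -⟩ := hexV
    have h1 : rkE D 1 ≠ 1 := fun h => hb1 (hr1' 1 h b hb (map_one b))
    have h0 : 0 < rkE D 1 := hl ▸ Brauer.KleinBlock.blockRank_pos D.B.2
    omega
  have hi : ∀ (U : Subgroup D.P), (∀ b ∈ (actHom D).range, ∀ x, x ∈ U ↔ b x ∈ U) → Inv D U :=
    fun U h t ht x y hxy => by
      have hy : actHom D ⟨t, ht⟩ x = y := Subtype.ext hxy
      rw [← hy]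
      exact h _ ⟨_, rfl⟩ x
  have hout : ∀ v : D.P, v ∉ V → v ∉ W → rkE D v = 1 ∧ ocE D v = 9 := by
    intro v hvV hvW
    refine ⟨rkAt_eq_one_of_free D hab (Subgroup.zpowers_le.2 v.2) ?_, ?_⟩
    · rintro t ⟨ht, htQ⟩
      exact (actHom_eq_one_iff D ⟨t, ht⟩).1 ((hfree _ ⟨_, rfl⟩ v).2.2 hvV hvW
        (fix_of_mem_centralizer D (Subgroup.mem_zpowers _) htQ))
    · show (orb a v).card = 9
      have h : orb a v = (Finset.univ.filter fun b : MulAut D.P => b ∈ (actHom D).range).image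
          fun b => b v := by
        ext w
        rw [mem_orb_iff D, Finset.mem_image]
        simp
      rw [h, Finset.card_image_of_injOn, ← Fintype.card_subtype, ← Nat.card_eq_fintype_card]
      · exact hE
      · intro b hb b' hb' hbb
        have hb := (Finset.mem_filter.1 hb).2
        have hb' := (Finset.mem_filter.1 hb').2
        have h' : b v = b' v := hbb
        refine (inv_mul_eq_one.1 ((hfree (b'⁻¹ * b) (mul_mem (inv_mem hb') hb) v).2.2 hvV hvW ?_)).symm
        rw [MulAut.mul_apply, h', MulAut.inv_apply, MulEquiv.symm_apply_apply]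
  obtain ⟨h16, h9⟩ := counts D V W hab hcard hV hW hVW (hi V fun b hb x => (hinv b hb x).1)
    (hi W fun b hb x => (hinv b hb x).2) (rkE D 1) hl2 rfl
    (fun v hv1 hv => hv.elim
      (fun h => ⟨hrkV v h hv1, horb3 V W hV hVW (fun b hb x => (hinv b hb x).1)
        (fun b hb x => (hfree b hb x).2.1) hexW v h hv1⟩)
      fun h => ⟨hrkW v h hv1, horb3 W V hW (by rw [inf_comm, hVW])
        (fun b hb x => (hinv b hb x).2) (fun b hb x => (hfree b hb x).1) hexV v h hv1⟩)
    hout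
  exact ⟨h16, hl ▸ h9⟩

end Cfsg.Agent.BlkElem16
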