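import Cfsg.Agent.BlkElem16.Main
import Cfsg.Agent.S4681
import Cfsg.Agent.S4691
import Cfsg.Agent.S4646

/-!
# The principal block with elementary abelian Sylow subgroup of order 16 and inertial index 9
-/

noncomputable section

set_option autoImplicit false
set_option linter.style.haveILetI false

namespace Cfsg.Agent.BlkElem16

open Cfsg Cfsg.Agent.BrauerPairs Cfsg.Agent.BlkWat
open scoped Classical

universe u

variable {p : ℕ} [Fact p.Prime] {M : Ideal AlgInt} [M.IsPrime] [CharP (Block.ResF M) p]
  {G : Type u} [Group G] [Fintype G]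

/-- The stabiliser of the principal pair is the normaliser. -/
theorem stab_principal (P : Subgroup G) :
    stab (⟨P, princBlk M (Subgroup.centralizer (P : Set G))⟩ : PairIdx M G) =
      Subgroup.normalizer (P : Set G) := by
  refine le_antisymm (stab_le_normalizer _) fun g hg => ⟨hg, ?_⟩
  exact fixed_iff_cj.1 (fixed_principal (S := pairSys M G)
    (fun Q => princBlk M (Subgroup.centralizer (Q : Set G)))
    (fun Q a ha => lam_principal_sub ha)) g hg

theorem principal_counts (hM : IsPModular p M) (P : Sylow p G) (hcard : Nat.card P = 16)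
    (hel : ∀ x : P, x ^ 2 = 1)
    (he : (Subgroup.centralizer ((P : Subgroup G) : Set G)).relIndex
      (Subgroup.normalizer ((P : Subgroup G) : Set G)) = 9) :
    Nat.card (principalBlock M G) = 16 ∧ blockRank p (principalBlock M G) = 9 := by
  have hm : IsMaximalBrauerPair p M (principalBlock M G) (P : Subgroup G)
      (princBlk M (Subgroup.centralizer ((P : Subgroup G) : Set G))).1 :=
    (Cfsg.Agent.S4681.result p M hM P).1
  have hab : ∀ x ∈ (P : Subgroup G), ∀ y ∈ (P : Subgroup G), x * y = y * x := by
    intro x hx y hy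
    have h1 : ∀ z : P, z⁻¹ = z := fun z => inv_eq_of_mul_eq_one_right (by rw [← pow_two]; exact hel z)
    have h := h1 (⟨x, hx⟩ * ⟨y, hy⟩)
    rw [mul_inv_rev, h1, h1] at h
    exact (congrArg Subtype.val h).symm
  obtain ⟨F, hF⟩ := exists_blockFS hm
  let D : BlkStar.SD p M G :=
    { B := princBlk M G, P := (P : Subgroup G),
      e := princBlk M (Subgroup.centralizer ((P : Subgroup G) : Set G)),
      F := F, isPModular := hM, isFS := hF }
  refine counts_of_index_nine D hab hcard hel ?_ fun u hu => ?_
  · show (Subgroup.centralizer ((P : Subgroup G) : Set G)).relIndex (stab _) = 9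
    rw [stab_principal]
    exact he
  -- a rank one local block is nilpotent
  set S := Subgroup.zpowers (u : G) with hS
  have hSP : S ≤ D.P := Subgroup.zpowers_le.2 u.2
  obtain ⟨f, hn, -⟩ := existsUnique_nsub (pairSys M G) (b := (⟨D.P, D.e⟩ : PairIdx M G))
    D.isPGroup hSP ((le_centralizer_of_abelian hab hSP).trans (Subgroup.centralizer_le_normalizer _))
  have hf : SLE (pairSys M G) p ⟨S, f⟩ ⟨D.P, D.e⟩ := Relation.ReflTransGen.single hn
  obtain rfl := eq_principal_of_pairOf (S₀ := blockSysTop M) (S := pairSys M G) (p := p)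
    (B₀ := princBlk M G) (Q := S) (e := f) (fun a ha => lam_principal_top ha)
    (fun Q => princBlk M (Subgroup.centralizer (Q : Set G)))
    (fun Q a ha => lam_principal_sub ha) (hf.pairOf_iff.1 D.maxPair.1)
  rw [rkAt_eq D.isPGroup hf] at hu
  haveI := Fintype.ofFinite (Subgroup.centralizer (S : Set G))
  have hnil := (Cfsg.Agent.S4691.result p M hM).1
    (Cfsg.Agent.S4646.hasNormalPComplement_of_rank_one hM hu)
  exact (isNilpotentBlock_local_iff D.isMax hab hn).1 hnil

end Cfsg.Agent.BlkElem16
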